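import Mathlib

set_option autoImplicit false

namespace Cfsg.Agent.Lib.Helper21

/-- A bimultiplicative map `G × G → T`. -/
structure BiMul (G T : Type*) [Group G] [CommGroup T] where
  toFun : G → G → T
  map_mul_left : ∀ g h k, toFun (g * h) k = toFun g k * toFun h k
  map_mul_right : ∀ g h k, toFun g (h * k) = toFun g h * toFun g k

namespace BiMul
variable {G T : Type*} [Group G] [CommGroup T] (β : BiMul G T)

lemma one_left (k : G) : β.toFun 1 k = 1 := by
  have := β.map_mul_left 1 1 k
  rw [mul_one] at this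
  exact (mul_eq_left.1 this.symm)

lemma one_right (g : G) : β.toFun g 1 = 1 := by
  have := β.map_mul_right g 1 1
  rw [mul_one] at this
  exact (mul_eq_left.1 this.symm)

lemma inv_left (g k : G) : β.toFun g⁻¹ k = (β.toFun g k)⁻¹ := by
  have := β.map_mul_left g⁻¹ g k
  rw [inv_mul_cancel, one_left] at this
  exact eq_inv_of_mul_eq_one_left this.symm

lemma inv_right (g k : G) : β.toFun g k⁻¹ = (β.toFun g k)⁻¹ := by
  have := β.map_mul_right g k⁻¹ k
  rw [inv_mul_cancel, one_right] at this
  exact eq_inv_of_mul_eq_one_left this.symm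

end BiMul

/-- The central extension of `G` by `T` defined by the bimultiplicative cocycle `β`. -/
@[ext] structure BExt {G T : Type*} [Group G] [CommGroup T] (β : BiMul G T) where
  fst : G
  snd : T

namespace BExt
variable {G T : Type*} [Group G] [CommGroup T] (β : BiMul G T)

instance : Mul (BExt β) := ⟨fun x y => ⟨x.fst * y.fst, x.snd * y.snd * β.toFun x.fst y.fst⟩⟩
instance : One (BExt β) := ⟨⟨1, 1⟩⟩
instance : Inv (BExt β) := ⟨fun x => ⟨x.fst⁻¹, x.snd⁻¹ * β.toFun x.fst x.fst⟩⟩

variable {β}
@[simp] lemma mul_fst (x y : BExt β) : (x * y).fst = x.fst * y.fst := rfl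
@[simp] lemma mul_snd (x y : BExt β) : (x * y).snd = x.snd * y.snd * β.toFun x.fst y.fst := rfl
@[simp] lemma one_fst : (1 : BExt β).fst = 1 := rfl
@[simp] lemma one_snd : (1 : BExt β).snd = 1 := rfl
@[simp] lemma inv_fst (x : BExt β) : (x⁻¹).fst = x.fst⁻¹ := rfl
@[simp] lemma inv_snd (x : BExt β) : (x⁻¹).snd = x.snd⁻¹ * β.toFun x.fst x.fst := rfl
variable (β)

instance : Group (BExt β) :=
  Group.ofLeftAxioms
    (by
      intro a b c
      ext
      · simp [mul_assoc]
      · simp only [mul_snd, mul_fst, β.map_mul_left, β.map_mul_right]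
        ac_rfl)
    (by
      intro a
      ext
      · simp
      · simp [β.one_left])
    (by
      intro a
      ext
      · simp
      · simp only [mul_snd, inv_snd, inv_fst, β.inv_left, one_snd]
        rw [mul_comm (a.snd⁻¹), mul_assoc, mul_assoc, ← mul_assoc (a.snd⁻¹), inv_mul_cancel, one_mul,
          mul_inv_cancel])

/-- the projection -/
def proj : BExt β →* G where
  toFun x := x.fst
  map_one' := rfl
  map_mul' _ _ := rfl

lemma proj_surjective : Function.Surjective (proj β) := fun g => ⟨⟨g, 1⟩, rfl⟩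

/-- the inclusion of the kernel -/
def incl : T →* BExt β where
  toFun t := ⟨1, t⟩
  map_one' := rfl
  map_mul' a b := by
    ext
    · simp
    · simp [β.one_left]

lemma incl_injective : Function.Injective (incl β) := by
  intro a b h
  exact congrArg BExt.snd h

lemma mem_ker_proj (x : BExt β) : x ∈ (proj β).ker ↔ x.fst = 1 := Iff.rfl

lemma ker_proj_eq_range : (proj β).ker = (incl β).range := by
  ext x
  constructor
  · intro h
    refine ⟨x.snd, ?_⟩
    ext
    · exact ((mem_ker_proj β x).1 h).symm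
    · rfl
  · rintro ⟨t, rfl⟩
    rfl

lemma incl_mem_center (t : T) : incl β t ∈ Subgroup.center (BExt β) := by
  rw [Subgroup.mem_center_iff]
  intro g
  ext
  · simp [incl]
  · simp [incl, β.one_left, β.one_right, mul_comm]

lemma ker_proj_le_center : (proj β).ker ≤ Subgroup.center (BExt β) := by
  rw [ker_proj_eq_range]
  rintro _ ⟨t, rfl⟩
  exact incl_mem_center β t

/-- kernel of the projection is `T` -/
noncomputable def kerEquiv : (proj β).ker ≃* T :=
  ((MulEquiv.subgroupCongr (ker_proj_eq_range β)).trans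
    (MonoidHom.ofInjective (incl_injective β)).symm)

/-- commutator of two elements with commuting projections -/
lemma comm_eq (x y : BExt β) (h : x.fst * y.fst = y.fst * x.fst) :
    x * y * x⁻¹ * y⁻¹ = incl β (β.toFun x.fst y.fst * (β.toFun y.fst x.fst)⁻¹) := by
  have h1 : x * y = incl β (β.toFun x.fst y.fst * (β.toFun y.fst x.fst)⁻¹) * (y * x) := by
    ext
    · simp [incl, h]
    · simp only [mul_snd, incl, MonoidHom.coe_mk, OneHom.coe_mk, mul_fst, β.one_left, mul_one]
      rw [mul_comm y.snd x.snd]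
      have : β.toFun x.fst y.fst * (β.toFun y.fst x.fst)⁻¹ * (x.snd * y.snd * β.toFun y.fst x.fst)
          = x.snd * y.snd * β.toFun x.fst y.fst * ((β.toFun y.fst x.fst)⁻¹ * β.toFun y.fst x.fst) := by
        ac_rfl
      rw [this, inv_mul_cancel, mul_one]
  rw [h1]
  group

instance [Finite G] [Finite T] : Finite (BExt β) :=
  Finite.of_injective (fun x : BExt β => (x.fst, x.snd)) (by
    intro a b h
    ext
    · exact congrArg Prod.fst h
    · exact congrArg Prod.snd h)

end BExt

/-- In a group where all commutators with `y` are central, `x ↦ [x,y]` is a homomorphism. -/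
def commHomCentral {X : Type*} [Group X] (y : X)
    (hy : ∀ x : X, x * y * x⁻¹ * y⁻¹ ∈ Subgroup.center X) : X →* Subgroup.center X where
  toFun x := ⟨x * y * x⁻¹ * y⁻¹, hy x⟩
  map_one' := by ext; simp
  map_mul' a b := by
    ext
    have hz := Subgroup.mem_center_iff.1 (hy b) a
    have hz2 := Subgroup.mem_center_iff.1 (hy b) (a * y * a⁻¹ * y⁻¹)
    change (a * b) * y * (a * b)⁻¹ * y⁻¹ = (a * y * a⁻¹ * y⁻¹) * (b * y * b⁻¹ * y⁻¹)
    rw [hz2]
    calc (a * b) * y * (a * b)⁻¹ * y⁻¹
        = (a * (b * y * b⁻¹ * y⁻¹)) * y * a⁻¹ * y⁻¹ := by group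
      _ = ((b * y * b⁻¹ * y⁻¹) * a) * y * a⁻¹ * y⁻¹ := by rw [hz]
      _ = _ := by group

end Cfsg.Agent.Lib.Helper21
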