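import Mathlib

set_option autoImplicit false

namespace Cfsg.Agent.Lib.Helper21

lemma prime_dvd_multiset_lcm {p : ℕ} (hp : p.Prime) (m : Multiset ℕ) (h : p ∣ m.lcm) :
    ∃ a ∈ m, p ∣ a := by
  induction m using Multiset.induction_on with
  | empty =>
    rw [Multiset.lcm_zero] at h
    exact absurd (Nat.dvd_one.1 h) hp.one_lt.ne'
  | cons a s ih =>
    rw [Multiset.lcm_cons] at h
    have h2 : p ∣ a * s.lcm := h.trans (Nat.lcm_dvd_mul a s.lcm)
    rcases (Nat.Prime.dvd_mul hp).1 h2 with h3 | h3
    · exact ⟨a, Multiset.mem_cons_self a s, h3⟩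
    · obtain ⟨b, hb, hb2⟩ := ih h3
      exact ⟨b, Multiset.mem_cons_of_mem hb, hb2⟩

lemma add_le_sum_of_mem {m : Multiset ℕ} {a b : ℕ} (ha : a ∈ m) (hb : b ∈ m) (hab : a ≠ b) :
    a + b ≤ m.sum := by
  obtain ⟨t, rfl⟩ := Multiset.exists_cons_of_mem ha
  have hb' : b ∈ t := by
    rcases Multiset.mem_cons.1 hb with h | h
    · exact absurd h.symm hab
    · exact h
  rw [Multiset.sum_cons]
  exact Nat.add_le_add_left (Multiset.le_sum_of_mem hb') a

lemma even_sum_add_card_of_odd (t : Multiset ℕ) (h : ∀ x ∈ t, Odd x) :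
    Even (t.sum + Multiset.card t) := by
  induction t using Multiset.induction_on with
  | empty => simp
  | cons a s ih =>
    rw [Multiset.sum_cons, Multiset.card_cons]
    have h1 := ih (fun x hx => h x (Multiset.mem_cons_of_mem hx))
    have h2 : Odd a := h a (Multiset.mem_cons_self a s)
    have h3 : Even (a + 1) := h2.add_one
    have : a + s.sum + (Multiset.card s + 1) = (a + 1) + (s.sum + Multiset.card s) := by ring
    rw [this]
    exact h3.add h1

lemma exists_even_of_odd_sum_add_card (t : Multiset ℕ) (h : ¬ Even (t.sum + Multiset.card t)) :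
    ∃ x ∈ t, Even x := by
  by_contra hcon
  push Not at hcon
  exact h (even_sum_add_card_of_odd t (fun x hx => Nat.not_even_iff_odd.1 (hcon x hx)))

lemma even_sum_add_card_of_sign {n : ℕ} (g : Equiv.Perm (Fin n)) (h : Equiv.Perm.sign g = 1) :
    Even (g.cycleType.sum + Multiset.card g.cycleType) := by
  rw [Equiv.Perm.sign_of_cycleType] at h
  by_contra hcon
  rw [Nat.not_even_iff_odd] at hcon
  rw [hcon.neg_one_pow] at h
  exact absurd h (by decide)

end Cfsg.Agent.Lib.Helper21
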