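import Mathlib
import Cfsg.Agent.S4211
import Cfsg.Agent.Lib.Helper10.Layer

set_option autoImplicit false

/-! Cyclic Sylow subgroups: power automorphisms, Burnside dichotomy. -/

namespace Cfsg.Agent.Lib.Helper21

open Subgroup
open scoped commutatorElement

theorem conj_pow_iter {X : Type*} [Group X] {x y : X} {k : ℕ} (h : y * x * y⁻¹ = x ^ k) (i : ℕ) :
    y ^ i * x * (y ^ i)⁻¹ = x ^ (k ^ i) := by
  induction i with
  | zero => simp
  | succ i ih =>
    calc y ^ (i + 1) * x * (y ^ (i + 1))⁻¹ = y * (y ^ i * x * (y ^ i)⁻¹) * y⁻¹ := by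
          rw [pow_succ', mul_inv_rev]; simp only [mul_assoc]
      _ = y * x ^ (k ^ i) * y⁻¹ := by rw [ih]
      _ = (y * x * y⁻¹) ^ (k ^ i) := (conj_pow).symm
      _ = x ^ (k ^ (i + 1)) := by rw [h, ← pow_mul, pow_succ']

/-- An element normalizing a cyclic Sylow `p`-subgroup `⟨x⟩` and acting as `x ↦ x ^ k` with
`k ≡ 1 (mod p)` centralizes it. -/
theorem cyc_sylow_commute {X : Type*} [Group X] [Finite X] {p : ℕ} [hp : Fact p.Prime]
    (P : Sylow p X) {x y : X} (hx : x ∈ (P : Subgroup X))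
    (hgen : ∀ a ∈ (P : Subgroup X), a ∈ zpowers x)
    (hy : y ∈ normalizer ((P : Subgroup X) : Set X)) {k : ℕ} (hk : y * x * y⁻¹ = x ^ k)
    (hk1 : (p : ℤ) ∣ (k : ℤ) - 1) : Commute y x := by
  obtain ⟨n, hn⟩ := P.2 ⟨x, hx⟩
  have hxn : x ^ (p ^ n) = 1 := by
    simpa only [SubmonoidClass.coe_pow, OneMemClass.coe_one] using congrArg Subtype.val hn
  have h1 : y ^ (p ^ n) * x * (y ^ (p ^ n))⁻¹ = x := by
    rw [conj_pow_iter hk]
    have hd : ((p : ℤ) ^ (n + 1)) ∣ (k : ℤ) ^ (p ^ n) - 1 ^ (p ^ n) := dvd_sub_pow_of_dvd_sub hk1 n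
    rw [one_pow] at hd
    obtain ⟨t, ht⟩ := (Dvd.dvd.trans (pow_dvd_pow (p : ℤ) (Nat.le_succ n)) hd)
    have h2 : ((k ^ (p ^ n) : ℕ) : ℤ) = 1 + ((p ^ n : ℕ) : ℤ) * t := by
      push_cast; linarith
    rw [← zpow_natCast, h2, zpow_add, zpow_one, zpow_mul, zpow_natCast, hxn, one_zpow, mul_one]
  have hc1 : Commute (y ^ (p ^ n)) x := by
    show y ^ (p ^ n) * x = x * y ^ (p ^ n)
    calc y ^ (p ^ n) * x = (y ^ (p ^ n) * x * (y ^ (p ^ n))⁻¹) * y ^ (p ^ n) := by group
      _ = x * y ^ (p ^ n) := by rw [h1]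
  obtain ⟨a, m, hm, ho⟩ := Nat.exists_eq_pow_mul_and_not_dvd (orderOf_pos y).ne' p hp.out.ne_one
  have hwp : (y ^ m) ^ (p ^ a) = 1 := by
    rw [← pow_mul, mul_comm, ← ho, pow_orderOf_eq_one]
  have hwP : IsPGroup p (zpowers (y ^ m)) := by
    rintro ⟨g, hg⟩
    obtain ⟨j, rfl⟩ := mem_zpowers_iff.1 hg
    refine ⟨a, Subtype.ext ?_⟩
    show ((y ^ m) ^ j) ^ (p ^ a) = 1
    rw [← zpow_natCast, ← zpow_mul, mul_comm, zpow_mul, zpow_natCast, hwp, one_zpow]
  have hwN : y ^ m ∈ normalizer ((P : Subgroup X) : Set X) := Subgroup.pow_mem _ hy m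
  have hwmem : y ^ m ∈ (P : Subgroup X) := by
    have h2 : y ^ m ∈ zpowers (y ^ m) ⊓ normalizer ((P : Subgroup X) : Set X) :=
      ⟨mem_zpowers _, hwN⟩
    have h3 := hwP.inf_normalizer_sylow P
    exact (h3.le h2).2
  have hc2 : Commute (y ^ m) x := by
    obtain ⟨j, hj⟩ := mem_zpowers_iff.1 (hgen _ hwmem)
    rw [← hj]
    exact (Commute.refl x).zpow_left j
  have hcop : Nat.Coprime m (p ^ n) :=
    Nat.Coprime.pow_right n ((Nat.Prime.coprime_iff_not_dvd hp.out).2 hm).symm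
  have hb := Nat.gcd_eq_gcd_ab m (p ^ n)
  rw [hcop.gcd_eq_one] at hb
  have hy1 : y = (y ^ m) ^ (Nat.gcdA m (p ^ n)) * (y ^ (p ^ n)) ^ (Nat.gcdB m (p ^ n)) := by
    rw [← zpow_natCast y m, ← zpow_natCast y (p ^ n), ← zpow_mul, ← zpow_mul, ← zpow_add, ← hb]
    simp
  have hfin : Commute ((y ^ m) ^ (Nat.gcdA m (p ^ n)) * (y ^ (p ^ n)) ^ (Nat.gcdB m (p ^ n))) x :=
    (hc2.zpow_left _).mul_left (hc1.zpow_left _)
  rw [← hy1] at hfin
  exact hfin

/-- With cyclic Sylow `p`-subgroups, commuting elements of order `p` generate the same subgroup. -/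
theorem mem_zpowers_of_commute_cyc {X : Type*} [Group X] [Finite X] {p : ℕ} [hp : Fact p.Prime]
    (P : Sylow p X) (hP : IsCyclic (P : Subgroup X)) {a b : X} (ha : orderOf a = p)
    (hb : b ^ p = 1) (hab : Commute a b) : b ∈ zpowers a := by
  have hcomm : ∀ u ∈ zpowers a, ∀ v ∈ zpowers b, u * v = v * u := by
    intro u hu v hv
    obtain ⟨i, rfl⟩ := mem_zpowers_iff.1 hu
    obtain ⟨j, rfl⟩ := mem_zpowers_iff.1 hv
    exact ((hab.zpow_left i).zpow_right j).eq
  have hA : IsPGroup p (zpowers a ⊔ zpowers b : Subgroup X) := by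
    rintro ⟨g, hg⟩
    obtain ⟨u, hu, v, hv, rfl⟩ := Cfsg.Agent.Lib.Helper10.mem_sup_of_commute hcomm hg
    refine ⟨1, Subtype.ext ?_⟩
    show (u * v) ^ (p ^ 1) = 1
    have huv : Commute u v := hcomm u hu v hv
    obtain ⟨i, rfl⟩ := mem_zpowers_iff.1 hu
    obtain ⟨j, rfl⟩ := mem_zpowers_iff.1 hv
    rw [pow_one, huv.mul_pow, ← zpow_natCast, ← zpow_natCast, ← zpow_mul, ← zpow_mul, mul_comm i,
      mul_comm j, zpow_mul, zpow_mul, zpow_natCast, zpow_natCast, hb, ← ha, pow_orderOf_eq_one]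
    simp
  obtain ⟨Q, hQ⟩ := hA.exists_le_sylow
  haveI : IsCyclic (Q : Subgroup X) := isCyclic_of_surjective (P.equiv Q) (P.equiv Q).surjective
  obtain ⟨g, hg⟩ := IsCyclic.exists_generator (α := (Q : Subgroup X))
  have hmem : ∀ c ∈ (Q : Subgroup X), c ∈ zpowers (g : X) := by
    intro c hc
    obtain ⟨j, hj⟩ := mem_zpowers_iff.1 (hg ⟨c, hc⟩)
    refine mem_zpowers_iff.2 ⟨j, ?_⟩
    have := congrArg Subtype.val hj
    simpa using this
  exact Cfsg.Agent.S4211.mem_zpowers_of_mem p hp.out.pos (g : X) b a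
    (hmem b (hQ (le_sup_right (a := zpowers a) (mem_zpowers b))))
    (hmem a (hQ (le_sup_left (b := zpowers b) (mem_zpowers a)))) ha hb

/-- Burnside's transfer theorem, packaged. -/
theorem burnside_complement {X : Type*} [Group X] [Finite X] {p : ℕ} [hp : Fact p.Prime]
    (P : Sylow p X) (h : normalizer ((P : Subgroup X) : Set X) ≤ centralizer ((P : Subgroup X) : Set X)) :
    ∃ T : Subgroup X, T.Normal ∧ commutator X ≤ T ∧ (Nat.card T).Coprime p ∧
      T.IsComplement' (P : Subgroup X) := by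
  refine ⟨(MonoidHom.transferSylow P h).ker, inferInstance, ?_, ?_,
    MonoidHom.ker_transferSylow_isComplement' P h⟩
  · rw [_root_.commutator_def, Subgroup.commutator_le]
    intro a _ b _
    rw [MonoidHom.mem_ker, map_commutatorElement, commutatorElement_eq_one_iff_commute]
    have hc : ∀ u v : (P : Subgroup X), u * v = v * u := fun u v =>
      Subtype.ext (h (le_normalizer v.2) u u.2)
    exact hc _ _
  · exact ((Nat.Prime.coprime_iff_not_dvd hp.out).2
      (MonoidHom.not_dvd_card_ker_transferSylow P h)).symm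

/-- For a cyclic Sylow `p`-subgroup `P`: either `P` has a normal complement containing the
commutator subgroup, or `P` lies in the commutator subgroup. -/
theorem cyc_sylow_dichotomy {X : Type*} [Group X] [Finite X] {p : ℕ} [hp : Fact p.Prime]
    (P : Sylow p X) (hP : IsCyclic (P : Subgroup X)) :
    (∃ T : Subgroup X, T.Normal ∧ commutator X ≤ T ∧ (Nat.card T).Coprime p ∧
      T.IsComplement' (P : Subgroup X)) ∨ (P : Subgroup X) ≤ commutator X := by
  obtain ⟨x0, hx0⟩ := IsCyclic.exists_generator (α := (P : Subgroup X))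
  have hgen : ∀ c ∈ (P : Subgroup X), c ∈ zpowers (x0 : X) := by
    intro c hc
    obtain ⟨j, hj⟩ := mem_zpowers_iff.1 (hx0 ⟨c, hc⟩)
    refine mem_zpowers_iff.2 ⟨j, ?_⟩
    have := congrArg Subtype.val hj
    simpa using this
  by_cases h : normalizer ((P : Subgroup X) : Set X) ≤ centralizer ((P : Subgroup X) : Set X)
  · exact Or.inl (burnside_complement P h)
  · right
    rw [SetLike.not_le_iff_exists] at h
    obtain ⟨y, hyN, hyC⟩ := h
    have hnc : ¬ Commute y (x0 : X) := by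
      intro hc
      apply hyC
      rw [mem_centralizer_iff]
      intro c hc'
      obtain ⟨j, rfl⟩ := mem_zpowers_iff.1 (hgen c hc')
      exact ((hc.zpow_right j).eq).symm
    have hconj : y * (x0 : X) * y⁻¹ ∈ (P : Subgroup X) := (mem_normalizer_iff.1 hyN _).1 x0.2
    obtain ⟨k, hk⟩ := (mem_powers_iff_mem_zpowers.2 (hgen _ hconj))
    have hk' : y * (x0 : X) * y⁻¹ = (x0 : X) ^ k := hk.symm
    have hnd : ¬ (p : ℤ) ∣ (k : ℤ) - 1 := fun hd => hnc (cyc_sylow_commute P x0.2 hgen hyN hk' hd)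
    obtain ⟨n, hn⟩ := P.2 x0
    have hxn : (x0 : X) ^ (p ^ n) = 1 := by
      simpa only [SubmonoidClass.coe_pow, OneMemClass.coe_one] using congrArg Subtype.val hn
    have hcm : (x0 : X) ^ ((k : ℤ) - 1) ∈ commutator X := by
      have h1 : ⁅y, (x0 : X)⁆ ∈ commutator X := by
        rw [_root_.commutator_def]
        exact Subgroup.commutator_mem_commutator (mem_top y) (mem_top _)
      rw [commutatorElement_def, hk'] at h1
      rw [zpow_sub, zpow_natCast, zpow_one]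
      exact h1
    have hcop : IsCoprime ((k : ℤ) - 1) ((p : ℤ) ^ n) :=
      IsCoprime.pow_right
        (((Nat.prime_iff_prime_int.1 hp.out).coprime_iff_not_dvd).2 hnd).symm
    obtain ⟨u, v, huv⟩ := hcop
    have hx : (x0 : X) ∈ commutator X := by
      have h2 : (x0 : X) = ((x0 : X) ^ ((k : ℤ) - 1)) ^ u := by
        have h3 : (x0 : X) ^ (u * ((k : ℤ) - 1) + v * (p : ℤ) ^ n) = (x0 : X) := by
          rw [huv, zpow_one]
        rw [zpow_add, mul_comm v, zpow_mul _ ((p : ℤ) ^ n) v] at h3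
        have h4 : (x0 : X) ^ ((p : ℤ) ^ n) = 1 := by
          have : ((p : ℤ) ^ n) = ((p ^ n : ℕ) : ℤ) := by push_cast; rfl
          rw [this, zpow_natCast, hxn]
        rw [h4, one_zpow, mul_one, mul_comm u, zpow_mul] at h3
        exact h3.symm
      rw [h2]
      exact Subgroup.zpow_mem _ hcm u
    intro c hc
    obtain ⟨j, rfl⟩ := mem_zpowers_iff.1 (hgen c hc)
    exact Subgroup.zpow_mem _ hx j

end Cfsg.Agent.Lib.Helper21
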