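import Mathlib
import Cfsg.Agent.Lib.Helper21.FrobCount

set_option autoImplicit false

namespace Cfsg.Agent.Lib.Helper21

open Subgroup

/-- If `e ∣ φ(d)` for every `d` with `Q d`, then `e` divides the number of elements whose order
satisfies `Q`. -/
lemma dvd_card_of_dvd_totient {G : Type*} [Group G] [Finite G] (e : ℕ) (Q : ℕ → Prop)
    (h : ∀ d, Q d → e ∣ Nat.totient d) : e ∣ Nat.card {x : G // Q (orderOf x)} := by
  classical
  haveI := Fintype.ofFinite (Subgroup G)
  let f : {x : G // Q (orderOf x)} → Subgroup G := fun x => zpowers x.1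
  rw [Nat.card_congr (Equiv.sigmaFiberEquiv f).symm, Nat.card_sigma]
  apply Finset.dvd_sum
  intro C _
  by_cases hC : IsEmpty {x // f x = C}
  · rw [Nat.card_of_isEmpty]
    exact dvd_zero _
  rw [not_isEmpty_iff] at hC
  obtain ⟨⟨⟨x0, hx0⟩, hx0C⟩⟩ := hC
  have hx0C' : zpowers x0 = C := hx0C
  haveI := Fintype.ofFinite (zpowers x0)
  have h1 : Nat.card {x // f x = C} =
      Nat.card {a : zpowers x0 // orderOf a = orderOf x0} := by
    apply Nat.card_congr
    exact
      { toFun := fun x => ⟨⟨x.1.1, by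
            have h2 : zpowers x.1.1 = C := x.2
            exact (le_of_eq (h2.trans hx0C'.symm)) (mem_zpowers _)⟩, by
            have h2 : zpowers x.1.1 = C := x.2
            rw [Subgroup.orderOf_mk, ← Nat.card_zpowers, h2.trans hx0C'.symm, Nat.card_zpowers]⟩
        invFun := fun a => ⟨⟨a.1.1, by
            have := a.2
            rw [Subgroup.orderOf_coe, this]
            exact hx0⟩, by
            show zpowers a.1.1 = C
            rw [← hx0C']
            apply Subgroup.eq_of_le_of_card_ge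
            · rw [zpowers_le]
              exact a.1.2
            · rw [Nat.card_zpowers, Nat.card_zpowers, Subgroup.orderOf_coe, a.2]⟩
        left_inv := fun _ => rfl
        right_inv := fun _ => rfl }
  rw [h1, Nat.card_eq_fintype_card, Fintype.card_subtype]
  have h2 := IsCyclic.card_orderOf_eq_totient (α := zpowers x0) (d := orderOf x0)
    (by rw [← Nat.card_eq_fintype_card, Nat.card_zpowers])
  rw [h2]
  exact h _ hx0

/-- the `p`-elements are the solutions of `x ^ |P| = 1` -/
lemma card_pElts_eq {G : Type*} [Group G] [Finite G] (p : ℕ) [Fact p.Prime] (P : Sylow p G) :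
    Nat.card {g : G // ∃ k : ℕ, orderOf g = p ^ k} =
      Nat.card {g : G // g ^ Nat.card (P : Subgroup G) = 1} := by
  have hp : p.Prime := Fact.out
  apply Nat.card_congr
  apply Equiv.subtypeEquivRight
  intro g
  constructor
  · rintro ⟨k, hk⟩
    apply orderOf_dvd_iff_pow_eq_one.mp
    rw [hk, P.card_eq_multiplicity]
    apply pow_dvd_pow
    apply (Nat.Prime.pow_dvd_iff_le_factorization hp Nat.card_pos.ne').mp
    rw [← hk]
    exact orderOf_dvd_natCard g
  · intro h
    obtain ⟨a, ha⟩ := P.2.exists_card_eq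
    rw [ha] at h
    obtain ⟨k, _, hk⟩ := (Nat.dvd_prime_pow hp).mp (orderOf_dvd_of_pow_eq_one h)
    exact ⟨k, hk⟩

lemma card_sylow_dvd_card_pElts {G : Type*} [Group G] [Finite G] (p : ℕ) [Fact p.Prime]
    (P : Sylow p G) :
    Nat.card (P : Subgroup G) ∣ Nat.card {g : G // ∃ k : ℕ, orderOf g = p ^ k} := by
  rw [card_pElts_eq p P]
  exact frobenius_dvd _ (Subgroup.card_subgroup_dvd_card _)

lemma card_pElts_modEq_one {G : Type*} [Group G] [Finite G] (p : ℕ) [Fact p.Prime] :
    Nat.card {g : G // ∃ k : ℕ, orderOf g = p ^ k} ≡ 1 [MOD (p - 1)] := by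
  classical
  have hp : p.Prime := Fact.out
  have h1 : (p - 1) ∣ Nat.card {x : G // ∃ k : ℕ, orderOf x = p ^ (k + 1)} := by
    apply dvd_card_of_dvd_totient (p - 1) (fun d => ∃ k : ℕ, d = p ^ (k + 1))
    rintro d ⟨k, rfl⟩
    rw [Nat.totient_prime_pow_succ hp]
    exact Dvd.intro_left _ rfl
  have h2 : Nat.card {g : G // ∃ k : ℕ, orderOf g = p ^ k} =
      Nat.card {x : G // ∃ k : ℕ, orderOf x = p ^ (k + 1)} + 1 := by
    rw [← Nat.card_congr (Equiv.sumCompl
      (fun g : {g : G // ∃ k : ℕ, orderOf g = p ^ k} => g.1 = 1)), Nat.card_sum]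
    have e1 : Nat.card {g : {g : G // ∃ k : ℕ, orderOf g = p ^ k} // g.1 = 1} = 1 :=
      Nat.card_eq_one_iff_unique.mpr
        ⟨⟨fun a b => Subtype.ext (Subtype.ext (a.2.trans b.2.symm))⟩, ⟨⟨⟨1, 0, by simp⟩, rfl⟩⟩⟩
    have e2 : Nat.card {g : {g : G // ∃ k : ℕ, orderOf g = p ^ k} // ¬ g.1 = 1} =
        Nat.card {x : G // ∃ k : ℕ, orderOf x = p ^ (k + 1)} := by
      apply Nat.card_congr
      exact
        { toFun := fun g => ⟨g.1.1, by
            obtain ⟨k, hk⟩ := g.1.2
            rcases k with _ | k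
            · exact absurd (orderOf_eq_one_iff.mp (by simpa using hk)) g.2
            · exact ⟨k, hk⟩⟩
          invFun := fun y => ⟨⟨y.1, by
            obtain ⟨k, hk⟩ := y.2
            exact ⟨k + 1, hk⟩⟩, by
            intro h
            obtain ⟨k, hk⟩ := y.2
            have h' : y.1 = 1 := h
            rw [h', orderOf_one] at hk
            have := Nat.one_lt_pow (Nat.succ_ne_zero k) hp.one_lt
            rw [← hk] at this
            exact lt_irrefl _ this⟩
          left_inv := fun _ => rfl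
          right_inv := fun _ => rfl }
    rw [e1, e2, add_comm]
  rw [h2]
  obtain ⟨w, hw⟩ := h1
  rw [hw]
  show ((p - 1) * w + 1) % (p - 1) = 1 % (p - 1)
  rw [Nat.mul_add_mod]

end Cfsg.Agent.Lib.Helper21
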