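import Mathlib
import Cfsg.Agent.Lib.Helper21.KPi2
import Cfsg.Agent.Lib.Helper21.KPi3
import Cfsg.Agent.Lib.Helper5.PPrimeQuot
import Cfsg.Agent.Lib.Helper18.PPrime
import Cfsg.Agent.S0215

set_option autoImplicit false

namespace Cfsg.Agent.Lib.Helper21

open Subgroup

universe u

lemma kOf_piElt_eq (G : Type*) [Group G] (σ : Finset ℕ) :
    kOf G (piElt σ) = Nat.card {C : ConjClasses G // ∀ g : G, ConjClasses.mk g = C →
      isPiElt (↑σ : Set ℕ) g} := by
  unfold kOf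
  apply Nat.card_congr
  apply Equiv.subtypeEquivRight
  intro C
  constructor
  · intro h g hg q hq hd
    exact Finset.mem_coe.2 (h g (ConjClasses.mem_carrier_iff_mk_eq.2 hg) q hq hd)
  · intro h x hx q hq hd
    exact Finset.mem_coe.1 (h x (ConjClasses.mem_carrier_iff_mk_eq.1 hx) q hq hd)

lemma isPElt_iff {G : Type*} [Group G] [Finite G] (p : ℕ) (hp : p.Prime) (x : G) :
    (∃ k : ℕ, orderOf x = p ^ k) ↔ isPiElt ({p} : Set ℕ) x := by
  constructor
  · rintro ⟨k, hk⟩ q hq hd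
    rw [hk] at hd
    exact Set.mem_singleton_iff.2 ((Nat.prime_dvd_prime_iff_eq hq hp).1 (hq.dvd_of_dvd_pow hd))
  · intro h
    exact ⟨_, Nat.eq_prime_pow_of_unique_prime_dvd (orderOf_pos x).ne'
      (fun {d} hd hdvd => Set.mem_singleton_iff.1 (h d hd hdvd))⟩

lemma kp_eq (G : Type*) [Group G] [Finite G] (p : ℕ) (hp : p.Prime) :
    kOf G (fun x => ∃ k : ℕ, orderOf x = p ^ k) =
      Nat.card {C : ConjClasses G // ∀ g : G, ConjClasses.mk g = C → isPiElt ({p} : Set ℕ) g} := by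
  unfold kOf
  apply Nat.card_congr
  apply Equiv.subtypeEquivRight
  intro C
  constructor
  · intro h g hg
    exact (isPElt_iff p hp g).1 (h g (ConjClasses.mem_carrier_iff_mk_eq.2 hg))
  · intro h x hx
    exact (isPElt_iff p hp x).2 (h x (ConjClasses.mem_carrier_iff_mk_eq.1 hx))

lemma kOf_piElt_le_mul {G : Type*} [Group G] [Finite G] (N : Subgroup G) [N.Normal]
    (σ : Finset ℕ) :
    kOf G (piElt σ) ≤ kOf N (piElt σ) * kOf (G ⧸ N) (piElt σ) := by
  rw [kOf_piElt_eq, kOf_piElt_eq, kOf_piElt_eq]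
  exact kpi_le_mul N _

lemma kp_le_mul {G : Type*} [Group G] [Finite G] (N : Subgroup G) [N.Normal] (p : ℕ)
    (hp : p.Prime) :
    kOf G (fun x => ∃ k : ℕ, orderOf x = p ^ k) ≤
      kOf N (fun x => ∃ k : ℕ, orderOf x = p ^ k) *
        kOf (G ⧸ N) (fun x => ∃ k : ℕ, orderOf x = p ^ k) := by
  rw [kp_eq G p hp, kp_eq N p hp, kp_eq (G ⧸ N) p hp]
  exact kpi_le_mul N _

lemma exists_isolated {G : Type*} [Group G] [Finite G] (P : Sylow 2 G)
    (hP : Even (Nat.card (P : Subgroup G)))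
    (h : Nat.card (P : Subgroup G) < 2 * kOf G (fun x => ∃ k : ℕ, orderOf x = 2 ^ k)) :
    ∃ u ∈ (P : Subgroup G), u ≠ 1 ∧
      ∀ g : G, g * u * g⁻¹ ∈ (P : Subgroup G) → g * u * g⁻¹ = u := by
  classical
  by_contra hcon
  push Not at hcon
  haveI := Fintype.ofFinite (P : Subgroup G)
  haveI := Fintype.ofFinite {c : ConjClasses G // ∀ x ∈ c.carrier, ∃ k : ℕ, orderOf x = 2 ^ k}
  let f := classOfMem P
  let s : Finset (P : Subgroup G) := Finset.univ.erase 1
  have h1 : 2 * (s.image f).card ≤ s.card := by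
    apply Finset.mul_card_image_le_card
    intro a ha
    obtain ⟨u, hu, rfl⟩ := Finset.mem_image.1 ha
    have hu1 : u ≠ 1 := (Finset.mem_erase.1 hu).1
    obtain ⟨g, hg1, hg2⟩ := hcon u u.2 (fun h => hu1 (Subtype.ext h))
    have hu' : (⟨g * u * g⁻¹, hg1⟩ : (P : Subgroup G)) ∈ s := by
      apply Finset.mem_erase.2 ⟨?_, Finset.mem_univ _⟩
      intro h
      have h2 : g * (u : G) * g⁻¹ = 1 := congrArg Subtype.val h
      exact hu1 (Subtype.ext (conj_eq_one_iff.1 h2))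
    have hf : f ⟨g * u * g⁻¹, hg1⟩ = f u := by
      apply Subtype.ext
      change ConjClasses.mk (g * (u : G) * g⁻¹) = ConjClasses.mk (u : G)
      rw [ConjClasses.mk_eq_mk_iff_isConj]
      exact (isConj_iff.2 ⟨g, rfl⟩).symm
    show 1 < _
    apply Finset.one_lt_card.2
    exact ⟨u, Finset.mem_filter.2 ⟨hu, rfl⟩, ⟨g * u * g⁻¹, hg1⟩, Finset.mem_filter.2 ⟨hu', hf⟩,
      fun h => hg2 (congrArg Subtype.val h).symm⟩
  have h2 : s.card + 1 = Nat.card (P : Subgroup G) := by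
    rw [Finset.card_erase_of_mem (Finset.mem_univ _), Finset.card_univ, Nat.card_eq_fintype_card]
    have : 0 < Fintype.card (P : Subgroup G) := Fintype.card_pos
    omega
  have h3 : kOf G (fun x => ∃ k : ℕ, orderOf x = 2 ^ k) ≤ (s.image f).card + 1 := by
    unfold kOf
    rw [Nat.card_eq_fintype_card, ← Finset.card_univ]
    calc (Finset.univ : Finset _).card ≤ (insert (f 1) (s.image f)).card := by
          apply Finset.card_le_card
          intro c _
          obtain ⟨x, hx⟩ := classOfMem_surjective P c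
          by_cases hx1 : x = 1
          · rw [← hx, hx1]; exact Finset.mem_insert_self _ _
          · exact Finset.mem_insert_of_mem
              (Finset.mem_image.2 ⟨x, Finset.mem_erase.2 ⟨hx1, Finset.mem_univ _⟩, hx⟩)
      _ ≤ (s.image f).card + 1 := Finset.card_insert_le _ _
  obtain ⟨m, hm⟩ := hP
  omega

lemma isolated_pow {G : Type*} [Group G] [Finite G] (P : Sylow 2 G) (u : G)
    (huP : u ∈ (P : Subgroup G))
    (hiso : ∀ g : G, g * u * g⁻¹ ∈ (P : Subgroup G) → g * u * g⁻¹ = u) (n : ℕ) (g : G)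
    (hg : g * u ^ n * g⁻¹ ∈ (P : Subgroup G)) : g * u ^ n * g⁻¹ = u ^ n := by
  obtain ⟨k, hk⟩ := isPElt_of_mem P u huP
  have hcen : ∀ y ∈ (P : Subgroup G), y * u * y⁻¹ = u := fun y hy =>
    hiso y ((P : Subgroup G).mul_mem ((P : Subgroup G).mul_mem hy huP) ((P : Subgroup G).inv_mem hy))
  have hcen' : ∀ y ∈ (P : Subgroup G), y * u ^ n * y⁻¹ = u ^ n := by
    intro y hy
    rw [← conj_pow, hcen y hy]
  have huC : u ∈ centralizer ({g * u ^ n * g⁻¹} : Set G) := by
    rw [mem_centralizer_singleton_iff]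
    have := hcen _ hg
    calc u * (g * u ^ n * g⁻¹)
        = ((g * u ^ n * g⁻¹) * u * (g * u ^ n * g⁻¹)⁻¹) * (g * u ^ n * g⁻¹) := by rw [this]
      _ = (g * u ^ n * g⁻¹) * u := by group
  have hmem : ∀ x : G, x ∈ ((g • P : Sylow 2 G) : Subgroup G) ↔ g⁻¹ * x * g ∈ (P : Subgroup G) := by
    intro x
    rw [Sylow.coe_subgroup_smul, Subgroup.mem_pointwise_smul_iff_inv_smul_mem]
    simp [MulAut.smul_def]
  have hP'C : ((g • P : Sylow 2 G) : Subgroup G) ≤ centralizer ({g * u ^ n * g⁻¹} : Set G) := by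
    intro x hx
    rw [hmem] at hx
    rw [mem_centralizer_singleton_iff]
    have h1 := hcen' _ hx
    calc x * (g * u ^ n * g⁻¹)
        = g * ((g⁻¹ * x * g) * u ^ n * (g⁻¹ * x * g)⁻¹) * g⁻¹ * x := by group
      _ = (g * u ^ n * g⁻¹) * x := by rw [h1]
  have hord : orderOf (⟨u, huC⟩ : centralizer ({g * u ^ n * g⁻¹} : Set G)) = 2 ^ k := by
    rw [← hk]; exact Subgroup.orderOf_mk u huC
  obtain ⟨c, hc⟩ := exists_conj_mem_sylow ((g • P : Sylow 2 G).subtype hP'C)
    (⟨u, huC⟩ : centralizer ({g * u ^ n * g⁻¹} : Set G)) ⟨k, hord⟩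
  have hc' : (c : G) * u * (c : G)⁻¹ ∈ ((g • P : Sylow 2 G) : Subgroup G) := by
    rw [Sylow.coe_subtype] at hc
    exact Subgroup.mem_subgroupOf.1 hc
  rw [hmem] at hc'
  have h2 := hiso (g⁻¹ * c) (by
    have : g⁻¹ * (c : G) * u * (g⁻¹ * c)⁻¹ = g⁻¹ * ((c : G) * u * (c : G)⁻¹) * g := by group
    rw [this]; exact hc')
  have h3 : (c : G) * u * (c : G)⁻¹ = g * u * g⁻¹ := by
    calc (c : G) * u * (c : G)⁻¹ = g * (g⁻¹ * (c : G) * u * (g⁻¹ * c)⁻¹) * g⁻¹ := by group
      _ = g * u * g⁻¹ := by rw [h2]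
  have h4 : (c : G) * u ^ n * (c : G)⁻¹ = g * u ^ n * g⁻¹ :=
    calc (c : G) * u ^ n * (c : G)⁻¹ = ((c : G) * u * (c : G)⁻¹) ^ n := conj_pow.symm
      _ = (g * u * g⁻¹) ^ n := congrArg (· ^ n) h3
      _ = g * u ^ n * g⁻¹ := conj_pow
  have h5 : (c : G) * (g * u ^ n * g⁻¹) = (g * u ^ n * g⁻¹) * c :=
    mem_centralizer_singleton_iff.1 c.2
  calc g * u ^ n * g⁻¹ = (c : G)⁻¹ * (c * (g * u ^ n * g⁻¹)) := by group
    _ = (c : G)⁻¹ * ((g * u ^ n * g⁻¹) * c) := by rw [h5]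
    _ = (c : G)⁻¹ * ((c : G) * u ^ n * (c : G)⁻¹ * c) := by rw [h4]
    _ = u ^ n := by group

lemma exists_isolated_involution {G : Type*} [Group G] [Finite G] (P : Sylow 2 G) (u : G)
    (huP : u ∈ (P : Subgroup G)) (hu1 : u ≠ 1)
    (hiso : ∀ g : G, g * u * g⁻¹ ∈ (P : Subgroup G) → g * u * g⁻¹ = u) :
    ∃ t ∈ (P : Subgroup G), orderOf t = 2 ∧
      ∀ g : G, g * t * g⁻¹ ∈ (P : Subgroup G) → g * t * g⁻¹ = t := by
  obtain ⟨k, hk⟩ := isPElt_of_mem P u huP
  have hk0 : k ≠ 0 := by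
    rintro rfl
    rw [pow_zero, orderOf_eq_one_iff] at hk
    exact hu1 hk
  obtain ⟨j, rfl⟩ := Nat.exists_eq_succ_of_ne_zero hk0
  refine ⟨u ^ (2 ^ j), (P : Subgroup G).pow_mem huP _, ?_, isolated_pow P u huP hiso _⟩
  rw [orderOf_pow_of_dvd (pow_ne_zero _ two_ne_zero)
    (by rw [hk]; exact pow_dvd_pow 2 (Nat.le_succ j)), hk, pow_succ]
  exact Nat.mul_div_cancel_left 2 (pow_pos (by norm_num) j)

theorem index_pPrimeCore_two_aux : ∀ (n : ℕ) (G : Type u) [Group G] [Finite G], Nat.card G = n →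
    2 ^ (Nat.card G).factorization 2 < 2 * kOf G (fun x => ∃ k : ℕ, orderOf x = 2 ^ k) →
    ∃ m : ℕ, (Cfsg.pPrimeCore 2 G).index = 2 ^ m := by
  intro n
  induction n using Nat.strong_induction_on with
  | _ n ih =>
  intro G _ _ hn h
  by_cases hO : Cfsg.pPrimeCore 2 G = ⊥
  swap
  · have hcard : Nat.card G = Nat.card (G ⧸ Cfsg.pPrimeCore 2 G) * Nat.card (Cfsg.pPrimeCore 2 G) :=
      card_eq_card_quotient_mul_card_subgroup _
    have hO1 : 1 < Nat.card (Cfsg.pPrimeCore 2 G) := (Subgroup.one_lt_card_iff_ne_bot _).2 hO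
    have hlt : Nat.card (G ⧸ Cfsg.pPrimeCore 2 G) < n := by
      rw [← hn, hcard]
      have := Nat.card_pos (α := G ⧸ Cfsg.pPrimeCore 2 G)
      nlinarith
    have hOodd : (Nat.card (Cfsg.pPrimeCore 2 G)).Coprime 2 := Helper5.pPrimeCore_coprime
    have hnd : ¬ 2 ∣ Nat.card (Cfsg.pPrimeCore 2 G) :=
      (Nat.Prime.coprime_iff_not_dvd Nat.prime_two).1 hOodd.symm
    have hv : (Nat.card G).factorization 2 =
        (Nat.card (G ⧸ Cfsg.pPrimeCore 2 G)).factorization 2 := by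
      rw [hcard, Nat.factorization_mul Nat.card_pos.ne' Nat.card_pos.ne']
      simp [Nat.factorization_eq_zero_of_not_dvd hnd]
    have hkO : kOf (Cfsg.pPrimeCore 2 G) (fun x => ∃ k : ℕ, orderOf x = 2 ^ k) ≤ 1 := by
      have := kr_le (Cfsg.pPrimeCore 2 G) 2 Nat.prime_two
      rwa [Nat.factorization_eq_zero_of_not_dvd hnd, pow_zero] at this
    have hk := kp_le_mul (Cfsg.pPrimeCore 2 G) 2 Nat.prime_two
    have h' : 2 ^ (Nat.card (G ⧸ Cfsg.pPrimeCore 2 G)).factorization 2 <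
        2 * kOf (G ⧸ Cfsg.pPrimeCore 2 G) (fun x => ∃ k : ℕ, orderOf x = 2 ^ k) := by
      rw [← hv]
      have h6 := hk.trans (Nat.mul_le_mul_right _ hkO)
      rw [one_mul] at h6
      omega
    obtain ⟨m, hm⟩ := ih _ hlt (G ⧸ Cfsg.pPrimeCore 2 G) rfl h'
    rw [Helper5.pPrimeCore_quot_pPrimeCore, Subgroup.index_bot] at hm
    exact ⟨m, hm⟩
  · by_cases h2 : 2 ∣ Nat.card G
    swap
    · have : (⊤ : Subgroup G) ≤ Cfsg.pPrimeCore 2 G := Helper5.le_pPrimeCore inferInstance (by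
        rw [Subgroup.card_top]
        exact ((Nat.Prime.coprime_iff_not_dvd Nat.prime_two).2 h2).symm)
      exact ⟨0, by rw [top_le_iff.1 this, Subgroup.index_top, pow_zero]⟩
    obtain ⟨P⟩ := (inferInstance : Nonempty (Sylow 2 G))
    have hPc : Nat.card (P : Subgroup G) = 2 ^ (Nat.card G).factorization 2 :=
      Sylow.card_eq_multiplicity P
    have hv1 : (Nat.card G).factorization 2 ≠ 0 :=
      (Nat.Prime.factorization_pos_of_dvd Nat.prime_two Nat.card_pos.ne' h2).ne'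
    have hPe : Even (Nat.card (P : Subgroup G)) := by
      rw [hPc]; exact (Nat.even_pow.2 ⟨even_two, hv1⟩)
    obtain ⟨u, huP, hu1, hiso⟩ := exists_isolated P hPe (by rw [hPc]; exact h)
    obtain ⟨t, htP, ht2, htiso⟩ := exists_isolated_involution P u huP hu1 hiso
    obtain ⟨N, hN, hNodd, hNc⟩ := Cfsg.Agent.S0215.result P t ht2 htP htiso
    have hNbot : N = ⊥ := by
      have := Helper5.le_pPrimeCore (p := 2) hN (Nat.coprime_two_right.2 hNodd)
      rw [hO] at this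
      exact le_bot_iff.1 this
    have htc : t ∈ center G := by
      rw [mem_center_iff]
      intro g
      have := hNc g
      rw [hNbot, mem_bot] at this
      calc g * t = (t * g * t⁻¹ * g⁻¹)⁻¹ * (t * g) := by group
        _ = t * g := by rw [this]; simp
    have hMc : zpowers t ≤ center G := by rw [zpowers_le]; exact htc
    haveI hMn : (zpowers t).Normal := ⟨fun x hx g => by
      have := mem_center_iff.1 (hMc hx) g
      rw [this, mul_assoc, mul_inv_cancel, mul_one]; exact hx⟩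
    have hM2 : Nat.card (zpowers t) = 2 := by rw [Nat.card_zpowers, ht2]
    have hcard : Nat.card G = Nat.card (G ⧸ zpowers t) * Nat.card (zpowers t) :=
      card_eq_card_quotient_mul_card_subgroup _
    have hlt : Nat.card (G ⧸ zpowers t) < n := by
      rw [← hn, hcard, hM2]
      have := Nat.card_pos (α := G ⧸ zpowers t)
      omega
    have hv : (Nat.card G).factorization 2 = (Nat.card (G ⧸ zpowers t)).factorization 2 + 1 := by
      rw [hcard, hM2, Nat.factorization_mul Nat.card_pos.ne' two_ne_zero]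
      simp [Nat.Prime.factorization_self Nat.prime_two]
    have hkM : kOf (zpowers t) (fun x => ∃ k : ℕ, orderOf x = 2 ^ k) ≤ 2 := by
      have := kr_le (zpowers t) 2 Nat.prime_two
      rwa [hM2, Nat.Prime.factorization_self Nat.prime_two, pow_one] at this
    have hk := kp_le_mul (zpowers t) 2 Nat.prime_two
    have h' : 2 ^ (Nat.card (G ⧸ zpowers t)).factorization 2 <
        2 * kOf (G ⧸ zpowers t) (fun x => ∃ k : ℕ, orderOf x = 2 ^ k) := by
      rw [hv, pow_succ] at h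
      have := hk.trans (Nat.mul_le_mul_right _ hkM)
      omega
    obtain ⟨m, hm⟩ := ih _ hlt (G ⧸ zpowers t) rfl h'
    have hK1 : (Cfsg.pPrimeCore 2 (G ⧸ zpowers t)).comap (QuotientGroup.mk' (zpowers t)) ≤
        zpowers t :=
      Helper18.le_of_central_of_pPrimeCore_eq_bot hO _ hMc
        (IsPGroup.of_card (n := 1) (by rw [hM2, pow_one])) (by
        rw [Helper5.relIndex_eq_card_map,
          Subgroup.map_comap_eq_self_of_surjective (QuotientGroup.mk'_surjective _)]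
        exact (Nat.Prime.coprime_iff_not_dvd Nat.prime_two).1 Helper5.pPrimeCore_coprime.symm)
    have hbot : Cfsg.pPrimeCore 2 (G ⧸ zpowers t) = ⊥ := by
      rw [← Subgroup.map_comap_eq_self_of_surjective (QuotientGroup.mk'_surjective (zpowers t))
        (Cfsg.pPrimeCore 2 (G ⧸ zpowers t)), Subgroup.map_eq_bot_iff, QuotientGroup.ker_mk']
      exact hK1
    rw [hbot, Subgroup.index_bot] at hm
    exact ⟨m + 1, by rw [hO, Subgroup.index_bot, hcard, hm, hM2, pow_succ]⟩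

/-- more than `|P|/2` classes of `2`-elements forces a normal `2`-complement. -/
theorem index_pPrimeCore_two (G : Type u) [Group G] [Finite G]
    (h : 2 ^ (Nat.card G).factorization 2 < 2 * kOf G (fun x => ∃ k : ℕ, orderOf x = 2 ^ k)) :
    ∃ m : ℕ, (Cfsg.pPrimeCore 2 G).index = 2 ^ m :=
  index_pPrimeCore_two_aux _ G rfl h

end Cfsg.Agent.Lib.Helper21
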