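import Mathlib
import Cfsg.Agent.Lib.Helper21.CoxA

set_option autoImplicit false

namespace Cfsg.Agent.Lib.Helper21.S6Out

open Equiv Equiv.Perm MulAction Subgroup
open scoped Pointwise

section general

variable {Ω : Type*} [Fintype Ω] [DecidableEq Ω]

lemma eq_one_of_central (h3 : 3 ≤ Fintype.card Ω) (n : Perm Ω) (hn : ∀ g : Perm Ω, g * n = n * g) :
    n = 1 := by
  by_contra hne
  obtain ⟨x, hx⟩ : ∃ x, n x ≠ x := by
    by_contra hc
    push Not at hc
    exact hne (Equiv.ext hc)
  obtain ⟨z, hz⟩ : ∃ z, z ∉ ({x, n x} : Finset Ω) := by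
    by_contra hc
    push Not at hc
    have h1 : (Finset.univ : Finset Ω) ⊆ {x, n x} := fun z _ => hc z
    have h2 := Finset.card_le_card h1
    have h3' : ({x, n x} : Finset Ω).card ≤ 2 := Finset.card_le_two
    rw [Finset.card_univ] at h2
    omega
  simp only [Finset.mem_insert, Finset.mem_singleton, not_or] at hz
  have h1 := congrArg (fun f : Perm Ω => f x) (hn (swap (n x) z))
  simp only [Perm.mul_apply] at h1
  rw [swap_apply_left, swap_apply_of_ne_of_ne (Ne.symm hx) (Ne.symm hz.1)] at h1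
  exact hz.2 h1

lemma alt_le_of_normal (h5 : 5 ≤ Fintype.card Ω) (N : Subgroup (Perm Ω)) [hNn : N.Normal]
    (hN : N ≠ ⊥) : alternatingGroup Ω ≤ N := by
  haveI : IsSimpleGroup (alternatingGroup Ω) :=
    alternatingGroup.isSimpleGroup (by rwa [Nat.card_eq_fintype_card])
  have hn : (N.subgroupOf (alternatingGroup Ω)).Normal := inferInstance
  rcases hn.eq_bot_or_eq_top with h | h
  · exfalso
    apply hN
    rw [eq_bot_iff]
    intro n hn
    rw [Subgroup.mem_bot]
    apply eq_one_of_central (by omega)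
    intro g
    have h1 : g * n * g⁻¹ * n⁻¹ ∈ N := N.mul_mem (hNn.conj_mem n hn g) (N.inv_mem hn)
    have h2 : g * n * g⁻¹ * n⁻¹ ∈ alternatingGroup Ω := by
      rw [Equiv.Perm.mem_alternatingGroup, map_mul, map_mul, map_mul, map_inv, map_inv,
        mul_comm (sign g) (sign n)]
      group
    have h3 : (⟨_, h2⟩ : alternatingGroup Ω) ∈ N.subgroupOf (alternatingGroup Ω) := by
      rw [Subgroup.mem_subgroupOf]; exact h1
    rw [h, Subgroup.mem_bot] at h3
    have h4 : g * n * g⁻¹ * n⁻¹ = 1 := congrArg Subtype.val h3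
    calc g * n = (g * n * g⁻¹ * n⁻¹) * (n * g) := by group
      _ = n * g := by rw [h4, one_mul]
  · rwa [Subgroup.subgroupOf_eq_top] at h

lemma sign_aut (α : Perm Ω ≃* Perm Ω) (g : Perm Ω) : sign (α g) = sign g := by
  have key : ∀ β : Perm Ω ≃* Perm Ω, ∀ g, sign g = 1 → sign (β g) = 1 := by
    intro β g hg
    have hle : alternatingGroup Ω ≤ (alternatingGroup Ω).comap β.toMonoidHom := by
      rw [← closure_three_cycles_eq_alternating, Subgroup.closure_le]
      intro c hc
      have h3 : c ^ 3 = 1 := by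
        have := hc.orderOf
        rw [← this]; exact pow_orderOf_eq_one c
      have h4 : c = (c ^ 2) ^ 2 := by
        rw [← pow_mul]
        show c = c ^ (3 + 1)
        rw [pow_add, h3, one_mul, pow_one]
      show β c ∈ closure {σ : Perm Ω | IsThreeCycle σ}
      rw [closure_three_cycles_eq_alternating, mem_alternatingGroup, h4, map_pow, map_pow]
      exact Int.units_sq _
    have h1 : g ∈ alternatingGroup Ω := mem_alternatingGroup.mpr hg
    exact mem_alternatingGroup.mp (hle h1)
  rcases Int.units_eq_one_or (sign g) with h | h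
  · rw [h, key α g h]
  · rcases Int.units_eq_one_or (sign (α g)) with h' | h'
    · have := key α.symm (α g) h'
      rw [α.symm_apply_apply, h] at this
      exact absurd this (by decide)
    · rw [h, h']

lemma odd_inv (h6 : Fintype.card Ω = 6) (u : Perm Ω) (h2 : u ^ 2 = 1) (hs : sign u = -1) :
    u.IsSwap ∨ u.cycleType = Multiset.replicate 3 2 := by
  have hne : u ≠ 1 := by
    rintro rfl
    rw [Perm.sign_one] at hs
    exact absurd hs (by decide)
  have ho : orderOf u = 2 := orderOf_eq_prime h2 hne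
  obtain ⟨n, hn⟩ := cycleType_prime_order (σ := u) (by rw [ho]; exact Nat.prime_two)
  rw [ho] at hn
  have hsum : u.cycleType.sum = u.support.card := sum_cycleType u
  rw [hn, Multiset.sum_replicate, smul_eq_mul] at hsum
  have hle : u.support.card ≤ 6 := by rw [← h6]; exact Finset.card_le_univ _
  have hn3 : n = 0 ∨ n = 1 ∨ n = 2 := by omega
  rcases hn3 with rfl | rfl | rfl
  · left; rw [← card_support_eq_two]; omega
  · exfalso
    rw [sign_of_cycleType, hn] at hs
    revert hs
    decide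
  · right; exact hn

lemma not_swap_of_fpf (h6 : Fintype.card Ω = 6) (u : Perm Ω) (hu : ∀ z, u z ≠ z) : ¬ u.IsSwap := by
  intro h
  rw [← card_support_eq_two] at h
  have h1 : u.support = Finset.univ := by
    ext z
    simp [hu z]
  rw [h1, Finset.card_univ, h6] at h
  omega

theorem ch1 : ∀ m k : ℕ, 1 ≤ k → k + 1 ≤ m → m ≤ m.choose k := by
  intro m
  induction m with
  | zero => intro k _ h; omega
  | succ m ih =>
    intro k hk hm
    obtain ⟨j, rfl⟩ : ∃ j, k = j + 1 := ⟨k - 1, by omega⟩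
    rw [Nat.choose_succ_succ']
    rcases Nat.eq_zero_or_pos j with rfl | hj
    · simp
    · have h1 := ih j hj (by omega)
      have h2 : 0 < m.choose (j + 1) := Nat.choose_pos (by omega)
      omega

theorem ch2 (n k : ℕ) (hk : 2 ≤ k) (hn : k + 2 ≤ n) : 2 * (n - 1) ≤ n.choose k := by
  obtain ⟨m, rfl⟩ : ∃ m, n = m + 1 := ⟨n - 1, by omega⟩
  obtain ⟨j, rfl⟩ : ∃ j, k = j + 1 := ⟨k - 1, by omega⟩
  rw [Nat.choose_succ_succ']
  have h1 := ch1 m j (by omega) (by omega)
  have h2 := ch1 m (j + 1) (by omega) (by omega)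
  omega

theorem idxStab (s : Set Ω) :
    (stabilizer (Perm Ω) s).index = (Fintype.card Ω).choose s.ncard := by
  classical
  have hc : s.toFinset.card = s.ncard := (Set.ncard_eq_toFinset_card' s).symm
  let s' : Set.powersetCard Ω s.ncard := ⟨s.toFinset, Set.powersetCard.mem_iff.mpr hc⟩
  have h1 := Set.powersetCard.stabilizer_coe (G := Perm Ω) s'
  have h2 : ((s' : Set Ω)) = s := by
    ext x
    simp [s']
  rw [h2] at h1
  rw [← h1]
  haveI := Set.powersetCard.isPretransitive (α := Ω) (n := s.ncard)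
  rw [index_stabilizer_of_transitive, Set.powersetCard.card, Nat.card_eq_fintype_card]


theorem stab_of_swap (h6 : Fintype.card Ω = 6)
    (H : Subgroup (Equiv.Perm Ω)) (hH : H.index = Fintype.card Ω)
    (t : Perm Ω) (htH : t ∈ H) (hsw : t.IsSwap) :
    ∃ x : Ω, H = MulAction.stabilizer (Equiv.Perm Ω) x := by
  classical
  obtain ⟨n, hn⟩ : ∃ n, n = Fintype.card Ω := ⟨_, rfl⟩
  rw [← hn] at h6 hH
  have hcardS : Nat.card (Perm Ω) = n.factorial := by
    rw [Nat.card_eq_fintype_card, Fintype.card_perm, hn]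
  have hHcard : Nat.card H * n = n.factorial := by
    have := H.card_mul_index
    rwa [hH, hcardS] at this
  have hnpos : 0 < n := by
    rw [← hH]; exact Nat.pos_of_ne_zero Subgroup.index_ne_zero_of_finite
  have hHpos : 0 < Nat.card H := Nat.card_pos
  obtain ⟨x0⟩ : Nonempty Ω := Fintype.card_pos_iff.mp (hn ▸ hnpos)
  have hpt : ∀ x : Ω, (stabilizer (Perm Ω) x).index = n := by
    intro x
    rw [index_stabilizer_of_transitive, Nat.card_eq_fintype_card, hn]
  have hfix : ∀ x : Ω, H ≤ stabilizer (Perm Ω) x → H = stabilizer (Perm Ω) x := by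
    intro x hx
    have h1 := Subgroup.relIndex_mul_index hx
    rw [hpt x, hH] at h1
    have h2 : H.relIndex (stabilizer (Perm Ω) x) = 1 := by
      have : H.relIndex (stabilizer (Perm Ω) x) * n = 1 * n := by rw [h1, one_mul]
      exact Nat.eq_of_mul_eq_mul_right hnpos this
    exact le_antisymm hx (Subgroup.relIndex_eq_one.mp h2)
  by_cases htr : IsPretransitive H Ω
  swap
  · -- intransitive case
    have horb : ∀ x : Ω, (orbit H x).ncard = 1 ∨ n ≤ (orbit H x).ncard + 1 := by
      intro x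
      have hle : H ≤ stabilizer (Perm Ω) (orbit H x) := by
        intro h hh
        rw [mem_stabilizer_iff]
        exact smul_orbit (⟨h, hh⟩ : H) x
      have hd := Subgroup.index_dvd_of_le hle
      rw [idxStab, hH, ← hn] at hd
      have hle2 := Nat.le_of_dvd hnpos hd
      have hpos : 0 < (orbit H x).ncard :=
        (Set.ncard_pos (Set.toFinite _)).mpr ⟨x, mem_orbit_self x⟩
      by_contra hc
      push Not at hc
      have := ch2 n (orbit H x).ncard (by omega) (by omega)
      omega
    have hone : ∀ x : Ω, (orbit H x).ncard = 1 → ∃ x : Ω, H = stabilizer (Perm Ω) x := by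
      intro x hx
      refine ⟨x, hfix x ?_⟩
      intro h hh
      rw [mem_stabilizer_iff]
      obtain ⟨y, hy⟩ := Set.ncard_eq_one.mp hx
      have h1 : x ∈ orbit H x := mem_orbit_self x
      have h2 : (⟨h, hh⟩ : H) • x ∈ orbit H x := mem_orbit x _
      rw [hy, Set.mem_singleton_iff] at h1 h2
      have h3 : h • x = y := h2
      rw [h3, h1]
    rcases horb x0 with h1 | h1
    · exact hone x0 h1
    · obtain ⟨y, hy⟩ : ∃ y, y ∉ orbit H x0 := by
        by_contra hc
        push Not at hc
        apply htr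
        refine ⟨fun a b => ?_⟩
        obtain ⟨g, hg⟩ := hc a
        obtain ⟨g', hg'⟩ := hc b
        refine ⟨g' * g⁻¹, ?_⟩
        rw [← hg, ← hg', mul_smul, inv_smul_smul]
      apply hone y
      have hdisj : Disjoint (orbit H x0) (orbit H y) := by
        rw [Set.disjoint_left]
        intro z hz hz'
        apply hy
        rw [← orbit_eq_iff] at hz hz'
        rw [← hz, hz']
        exact mem_orbit_self y
      have hsum : (orbit H x0 ∪ orbit H y).ncard = (orbit H x0).ncard + (orbit H y).ncard :=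
        Set.ncard_union_eq hdisj (Set.toFinite _) (Set.toFinite _)
      have hle : (orbit H x0 ∪ orbit H y).ncard ≤ n := by
        have := Set.ncard_le_ncard (Set.subset_univ (orbit H x0 ∪ orbit H y)) (Set.toFinite _)
        rwa [Set.ncard_univ, Nat.card_eq_fintype_card, ← hn] at this
      have hpos : 0 < (orbit H y).ncard :=
        (Set.ncard_pos (Set.toFinite _)).mpr ⟨y, mem_orbit_self y⟩
      omega
  -- transitive case
  by_cases hn1 : n = 1
  · refine ⟨x0, hfix x0 ?_⟩
    intro h _
    rw [mem_stabilizer_iff]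
    haveI : Subsingleton Ω := Fintype.card_le_one_iff_subsingleton.mp (by omega)
    exact Subsingleton.elim _ _
  exfalso
  have hn7 : 6 ≤ n := by omega
  by_cases hprim : IsPreprimitive H Ω
  · -- primitive
    have htop := Equiv.Perm.subgroup_eq_top_of_isPreprimitive_of_isSwap_mem hprim t hsw htH
    rw [htop, Subgroup.index_top] at hH
    omega
  · -- imprimitive
    obtain ⟨B, hB, hBt⟩ : ∃ B : Set Ω, IsBlock H B ∧ ¬ IsTrivialBlock B := by
      by_contra hc
      push Not at hc
      exact hprim ⟨fun {B} hB => hc B hB⟩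
    have hBne : B.Nonempty := by
      by_contra hc
      rw [Set.not_nonempty_iff_eq_empty] at hc
      exact hBt (Or.inl (by rw [hc]; exact Set.subsingleton_empty))
    have hmul := hB.ncard_block_mul_ncard_orbit_eq hBne
    rw [Nat.card_eq_fintype_card, ← hn] at hmul
    obtain ⟨a, ha⟩ : ∃ a, a = B.ncard := ⟨_, rfl⟩
    obtain ⟨N, hN⟩ : ∃ N, N = (orbit H B).ncard := ⟨_, rfl⟩
    rw [← ha, ← hN] at hmul
    have ha2 : 2 ≤ a := by
      by_contra hc
      apply hBt; left
      rw [← Set.ncard_le_one_iff_subsingleton]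
      omega
    have hN2 : 2 ≤ N := by
      by_contra hc
      have hN1 : N = 1 ∨ N = 0 := by omega
      apply hBt; right
      have han : a = n := by rcases hN1 with h | h <;> rw [h] at hmul <;> omega
      apply Set.eq_of_subset_of_ncard_le (Set.subset_univ B) _ (Set.toFinite _)
      rw [Set.ncard_univ, Nat.card_eq_fintype_card, ← hn, ← ha, han]
    obtain ⟨T, hT⟩ : ∃ T, T = stabilizer (Perm Ω) B := ⟨_, rfl⟩
    have hTidx : T.index = n.choose a := by rw [hT, idxStab, ← hn, ← ha]
    have hstab : stabilizer H B = T.subgroupOf H := by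
      ext g
      rw [mem_stabilizer_iff, Subgroup.mem_subgroupOf, hT, mem_stabilizer_iff]
      rfl
    have hNrel : T.relIndex H = N := by
      rw [Subgroup.relIndex, ← hstab, index_stabilizer, hN]
    have e1 := Subgroup.relIndex_mul_index (inf_le_left : H ⊓ T ≤ H)
    have e2 := Subgroup.relIndex_mul_index (inf_le_right : H ⊓ T ≤ T)
    rw [Subgroup.inf_relIndex_left, hNrel, hH] at e1
    rw [Subgroup.inf_relIndex_right, hTidx] at e2
    obtain ⟨t, ht⟩ : ∃ t, t = H.relIndex T := ⟨_, rfl⟩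
    rw [← ht] at e2
    have e3 : N * n = t * n.choose a := by rw [e1, e2]
    have htpos : 0 < t := by
      rcases Nat.eq_zero_or_pos t with h | h
      · rw [h, zero_mul] at e3
        have : 0 < N * n := by positivity
        omega
      · exact h
    clear hn hH hcardS hpt hHcard hTidx e1 e2 ha h6 hfix
    obtain ⟨n', rfl⟩ : ∃ n', n = n' + 1 := ⟨n - 1, by omega⟩
    obtain ⟨a', rfl⟩ : ∃ a', a = a' + 1 := ⟨a - 1, by omega⟩
    have hsc := Nat.add_one_mul_choose_eq n' a'
    have e4 : (n' + 1) = t * n'.choose a' := by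
      have : (n' + 1) * (n' + 1) = (n' + 1) * (t * n'.choose a') := by
        calc (n' + 1) * (n' + 1) = ((a' + 1) * N) * (n' + 1) := by rw [hmul]
          _ = (a' + 1) * (N * (n' + 1)) := by ring
          _ = (a' + 1) * (t * (n' + 1).choose (a' + 1)) := by rw [e3]
          _ = t * ((n' + 1).choose (a' + 1) * (a' + 1)) := by ring
          _ = t * ((n' + 1) * n'.choose a') := by rw [← hsc]
          _ = (n' + 1) * (t * n'.choose a') := by ring
      exact Nat.eq_of_mul_eq_mul_left (by omega) this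
    rcases Nat.lt_or_ge a' 2 with h | h
    · have h1 : a' = 1 := by omega
      subst h1
      rw [Nat.choose_one_right] at e4
      rcases Nat.lt_or_ge t 2 with h' | h'
      · have h2 : t = 1 := by omega
        subst h2; omega
      · nlinarith
    · have h3 : a' + 2 ≤ n' := by nlinarith
      have hc2 := ch2 n' a' h h3
      have h4 : n'.choose a' ≤ t * n'.choose a' := Nat.le_mul_of_pos_left _ htpos
      omega




lemma exists_aut (h6 : Fintype.card Ω = 6) (H : Subgroup (Perm Ω)) (hH : H.index = 6) :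
    ∃ (α : Perm Ω ≃* Perm Ω) (a : Ω), ∀ g, g ∈ H ↔ α g a = a := by
  classical
  haveI : Fintype (Perm Ω ⧸ H) := Fintype.ofFinite _
  have hc : Fintype.card (Perm Ω ⧸ H) = Fintype.card Ω := by
    rw [← Nat.card_eq_fintype_card, h6]; exact hH
  let e : (Perm Ω ⧸ H) ≃ Ω := Fintype.equivOfCardEq hc
  let φ : Perm Ω →* Perm (Perm Ω ⧸ H) := MulAction.toPermHom (Perm Ω) (Perm Ω ⧸ H)
  let ψ : Perm Ω →* Perm Ω := (e.permCongrHom.toMonoidHom).comp φ
  have hmem : ∀ g, g ∈ H ↔ ψ g (e ((1 : Perm Ω) : Perm Ω ⧸ H)) = e ((1 : Perm Ω) : Perm Ω ⧸ H) := by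
    intro g
    have h1 : ψ g (e ((1 : Perm Ω) : Perm Ω ⧸ H)) = e (g • ((1 : Perm Ω) : Perm Ω ⧸ H)) := by
      show e (φ g (e.symm (e ((1 : Perm Ω) : Perm Ω ⧸ H)))) = _
      rw [e.symm_apply_apply]
      rfl
    rw [h1, e.injective.eq_iff, ← MulAction.mem_stabilizer_iff, MulAction.stabilizer_quotient]
  have hker : ψ.ker ≤ H := by
    intro g hg
    rw [hmem]
    have h1 : ψ g = 1 := hg
    rw [h1]
    rfl
  have hinj : Function.Injective ψ := by
    rw [← MonoidHom.ker_eq_bot_iff]
    by_contra hne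
    have h1 := alt_le_of_normal (by omega) ψ.ker hne
    haveI : Nontrivial Ω := Fintype.one_lt_card_iff_nontrivial.mp (by omega)
    have h2 := Subgroup.index_dvd_of_le (h1.trans hker)
    rw [alternatingGroup.index_eq_two, hH] at h2
    have := Nat.le_of_dvd (by norm_num) h2
    omega
  have hbij : Function.Bijective ψ := ⟨hinj, Finite.injective_iff_surjective.mp hinj⟩
  exact ⟨MulEquiv.ofBijective ψ hbij, e ((1 : Perm Ω) : Perm Ω ⧸ H), hmem⟩

lemma exists_two_ne (h6 : Fintype.card Ω = 6) (a : Ω) : ∃ b c : Ω, b ≠ a ∧ c ≠ a ∧ b ≠ c := by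
  have h1 : 1 < (({a} : Finset Ω)ᶜ).card := by
    rw [Finset.card_compl, h6, Finset.card_singleton]
    omega
  obtain ⟨b, hb, c, hc, hbc⟩ := Finset.one_lt_card.mp h1
  simp only [Finset.mem_compl, Finset.mem_singleton] at hb hc
  exact ⟨b, c, hb, hc, hbc⟩

lemma stab_of_aut (h6 : Fintype.card Ω = 6) (H : Subgroup (Perm Ω)) (hH : H.index = 6)
    (α : Perm Ω ≃* Perm Ω) (a : Ω) (hα : ∀ g, g ∈ H ↔ α g a = a)
    (t₀ : Perm Ω) (ht₀ : t₀.IsSwap) (hsw : (α t₀).IsSwap) :
    ∃ b : Ω, H = stabilizer (Perm Ω) b := by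
  obtain ⟨b, c, hba, hca, hbc⟩ := exists_two_ne h6 a
  obtain ⟨p, q, hpq, hpq'⟩ := hsw
  have hconj : IsConj (swap p q) (swap b c) := isConj_swap hpq hbc
  obtain ⟨σ, hσ⟩ := isConj_iff.mp hconj
  have h1 : α (α.symm σ * t₀ * (α.symm σ)⁻¹) = swap b c := by
    rw [map_mul, map_mul, map_inv, α.apply_symm_apply, hpq', hσ]
  have h2 : α.symm σ * t₀ * (α.symm σ)⁻¹ ∈ H := by
    rw [hα, h1]; exact swap_apply_of_ne_of_ne hba.symm hca.symm
  have h3 : (α.symm σ * t₀ * (α.symm σ)⁻¹).IsSwap := by
    rw [← card_support_eq_two, card_support_conj, card_support_eq_two]; exact ht₀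
  exact stab_of_swap h6 H (by rw [hH, h6]) _ h2 h3

theorem main (h6 : Fintype.card Ω = 6) (γ : Perm Ω ≃* Perm Ω)
    (hγ : ∀ x y : Ω, x ≠ y → ∀ z, γ (swap x y) z ≠ z)
    (H : Subgroup (Perm Ω)) (hH : H.index = 6) :
    (∃ b : Ω, H = stabilizer (Perm Ω) b) ∨
      (∃ b : Ω, H = (stabilizer (Perm Ω) b).map γ.toMonoidHom) := by
  obtain ⟨α, a, hα⟩ := exists_aut h6 H hH
  obtain ⟨x, y, -, -, hxy⟩ := exists_two_ne h6 a
  obtain ⟨t₀, ht₀d⟩ : ∃ t₀, t₀ = swap x y := ⟨_, rfl⟩
  have ht₀ : t₀.IsSwap := ⟨x, y, hxy, ht₀d⟩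
  have ht2 : t₀ ^ 2 = 1 := by rw [pow_two, ht₀d]; exact swap_mul_self x y
  have hts : sign t₀ = -1 := by rw [ht₀d]; exact sign_swap hxy
  have odd : ∀ β : Perm Ω ≃* Perm Ω,
      (β t₀).IsSwap ∨ (β t₀).cycleType = Multiset.replicate 3 2 := by
    intro β
    apply odd_inv h6
    · rw [← map_pow, ht2, map_one]
    · rw [sign_aut, hts]
  rcases odd α with h | h
  · left; exact stab_of_aut h6 H hH α a hα t₀ ht₀ h
  · right
    have hg : (γ t₀).cycleType = Multiset.replicate 3 2 := by
      rcases odd γ with h' | h'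
      · exfalso
        exact not_swap_of_fpf h6 _ (by rw [ht₀d]; exact hγ x y hxy) h'
      · exact h'
    have hsw : ((γ.trans α) t₀).IsSwap := by
      rcases odd (γ.trans α) with h' | h'
      · exact h'
      · exfalso
        have h1 : IsConj (α (γ t₀)) (α t₀) := by
          rw [isConj_iff_cycleType_eq, h]; exact h'
        have h2 : IsConj (γ t₀) t₀ := by
          have := α.symm.toMonoidHom.map_isConj h1
          simpa using this
        rw [isConj_iff_cycleType_eq, hg, isSwap_iff_cycleType.mp ht₀] at h2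
        exact absurd (congrArg Multiset.card h2) (by simp)
    have hH' : (H.comap γ.toMonoidHom).index = 6 := by
      rw [Subgroup.index_comap_of_surjective _ γ.surjective]; exact hH
    obtain ⟨b, hb⟩ := stab_of_aut h6 (H.comap γ.toMonoidHom) hH' (γ.trans α) a
      (fun g => by rw [Subgroup.mem_comap]; exact hα (γ g)) t₀ ht₀ hsw
    refine ⟨b, ?_⟩
    rw [← hb, Subgroup.map_comap_eq_self_of_surjective γ.surjective]

lemma index_stab (h6 : Fintype.card Ω = 6) (b : Ω) : (stabilizer (Perm Ω) b).index = 6 := by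
  rw [index_stabilizer_of_transitive, Nat.card_eq_fintype_card, h6]

lemma index_map (γ : Perm Ω ≃* Perm Ω) (K : Subgroup (Perm Ω)) :
    (K.map γ.toMonoidHom).index = K.index := by
  have h : K.map γ.toMonoidHom = K.comap γ.symm.toMonoidHom := by
    ext g
    rw [Subgroup.mem_map, Subgroup.mem_comap]
    constructor
    · rintro ⟨k, hk, rfl⟩
      simpa using hk
    · intro hg
      exact ⟨_, hg, by simp⟩
  rw [h, Subgroup.index_comap_of_surjective _ γ.symm.surjective]

lemma stab_inj (h6 : Fintype.card Ω = 6) (b c : Ω)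
    (h : stabilizer (Perm Ω) b = stabilizer (Perm Ω) c) : b = c := by
  by_contra hbc
  obtain ⟨z, hz⟩ : ∃ z, z ∉ ({b, c} : Finset Ω) := by
    by_contra hc
    push Not at hc
    have h1 : (Finset.univ : Finset Ω) ⊆ {b, c} := fun z _ => hc z
    have h2 := Finset.card_le_card h1
    have h3' : ({b, c} : Finset Ω).card ≤ 2 := Finset.card_le_two
    rw [Finset.card_univ] at h2
    omega
  simp only [Finset.mem_insert, Finset.mem_singleton, not_or] at hz
  have h1 : swap c z ∈ stabilizer (Perm Ω) b := by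
    rw [mem_stabilizer_iff]
    exact swap_apply_of_ne_of_ne hbc (Ne.symm hz.1)
  rw [h, mem_stabilizer_iff] at h1
  have h2 : swap c z c = c := h1
  rw [swap_apply_left] at h2
  exact hz.2 h2

lemma map_ne_stab (h6 : Fintype.card Ω = 6) (γ : Perm Ω ≃* Perm Ω)
    (hγ : ∀ x y : Ω, x ≠ y → ∀ z, γ (swap x y) z ≠ z) (b c : Ω) :
    (stabilizer (Perm Ω) b).map γ.toMonoidHom ≠ stabilizer (Perm Ω) c := by
  intro h
  obtain ⟨x, y, hx, hy, hxy⟩ := exists_two_ne h6 b
  have h1 : swap x y ∈ stabilizer (Perm Ω) b := by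
    rw [mem_stabilizer_iff]
    exact swap_apply_of_ne_of_ne hx.symm hy.symm
  have h2 : γ (swap x y) ∈ (stabilizer (Perm Ω) b).map γ.toMonoidHom :=
    Subgroup.mem_map.mpr ⟨_, h1, rfl⟩
  rw [h, mem_stabilizer_iff] at h2
  exact hγ x y hxy c h2

lemma map_inj (γ : Perm Ω ≃* Perm Ω) (K L : Subgroup (Perm Ω))
    (h : K.map γ.toMonoidHom = L.map γ.toMonoidHom) : K = L :=
  Subgroup.map_injective (f := γ.toMonoidHom) γ.injective h

lemma stab_iso (h6 : Fintype.card Ω = 6) (b : Ω) :
    Nonempty (stabilizer (Perm Ω) b ≃* Perm (Fin 5)) := by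
  classical
  have hc : Fintype.card {x : Ω // x ≠ b} = 5 := by
    rw [Fintype.card_subtype_compl, h6]
    simp
  let e : {x : Ω // x ≠ b} ≃ Fin 5 := Fintype.equivFinOfCardEq hc
  let f : Perm {x : Ω // x ≠ b} →* Perm Ω := Perm.ofSubtype
  have hf : Function.Injective f := Perm.ofSubtype_injective
  have hr : f.range = stabilizer (Perm Ω) b := by
    ext g
    rw [mem_stabilizer_iff]
    constructor
    · rintro ⟨k, rfl⟩
      exact Perm.ofSubtype_apply_of_not_mem k (by simp)
    · intro hg
      have hg' : g b = b := hg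
      have h₁ : ∀ x, g x ≠ b ↔ x ≠ b := by
        intro x
        rw [not_iff_not]
        constructor
        · intro h
          apply g.injective
          rw [h, hg']
        · rintro rfl
          exact hg'
      refine ⟨Perm.subtypePerm g h₁, Perm.ofSubtype_subtypePerm h₁ ?_⟩
      intro x hx hxb
      exact hx (by rw [hxb]; exact hg')
  exact ⟨((MulEquiv.subgroupCongr hr).symm.trans (MonoidHom.ofInjective hf).symm).trans
    e.permCongrHom⟩

end general

section outer

open Cfsg.Agent.Lib.Helper21.CoxA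

/-- images of the Coxeter generators under an outer automorphism of `S₆` -/
def f6 : Fin 5 → Perm (Fin 6) :=
  ![swap 0 1 * swap 2 3 * swap 4 5, swap 0 2 * swap 1 4 * swap 3 5,
    swap 0 1 * swap 2 5 * swap 3 4, swap 0 2 * swap 1 3 * swap 4 5,
    swap 0 1 * swap 2 4 * swap 3 5]

set_option maxRecDepth 100000 in
lemma f6_liftable : (CoxeterMatrix.A 5).IsLiftable f6 := by
  intro i j
  revert i j
  decide

noncomputable def g6 : Perm (Fin 6) →* Perm (Fin 6) := (permSystem 5).lift ⟨f6, f6_liftable⟩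

lemma g6_zero : g6 (swap 0 1) = f6 0 := by
  have h := (permSystem 5).lift_apply_simple f6_liftable 0
  rw [permSystem_simple] at h
  exact h

lemma g6_one : g6 (swap 1 2) = f6 1 := by
  have h := (permSystem 5).lift_apply_simple f6_liftable 1
  rw [permSystem_simple] at h
  exact h

lemma g6_inj : Function.Injective g6 := by
  rw [← MonoidHom.ker_eq_bot_iff]
  by_contra hne
  have h1 := alt_le_of_normal (Ω := Fin 6) (by simp) g6.ker hne
  have h2 : (swap 0 1 * swap 1 2 : Perm (Fin 6)) ∈ alternatingGroup (Fin 6) := by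
    rw [mem_alternatingGroup, map_mul, sign_swap (by decide), sign_swap (by decide)]
    decide
  have h3 : g6 (swap 0 1 * swap 1 2) = 1 := h1 h2
  rw [map_mul, g6_zero, g6_one] at h3
  revert h3
  decide

noncomputable def γ6 : Perm (Fin 6) ≃* Perm (Fin 6) :=
  MulEquiv.ofBijective g6 ⟨g6_inj, Finite.injective_iff_surjective.mp g6_inj⟩

lemma γ6_fpf (x y : Fin 6) (hxy : x ≠ y) (z : Fin 6) : γ6 (swap x y) z ≠ z := by
  have hconj : IsConj (swap (0 : Fin 6) 1) (swap x y) := isConj_swap (by decide) hxy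
  obtain ⟨σ, hσ⟩ := isConj_iff.mp hconj
  have h0 : γ6 (swap 0 1) = f6 0 := g6_zero
  rw [← hσ, map_mul, map_mul, map_inv, h0]
  intro h
  have h1 : f6 0 ((γ6 σ)⁻¹ z) = (γ6 σ)⁻¹ z := by
    have := congrArg (fun w => (γ6 σ)⁻¹ w) h
    simpa [Perm.mul_apply] using this
  revert h1
  generalize (γ6 σ)⁻¹ z = w
  revert w
  decide

theorem exists_outer {Ω : Type*} [Fintype Ω] [DecidableEq Ω] (h6 : Fintype.card Ω = 6) :
    ∃ γ : Perm Ω ≃* Perm Ω, ∀ x y : Ω, x ≠ y → ∀ z, γ (swap x y) z ≠ z := by
  let e : Ω ≃ Fin 6 := Fintype.equivFinOfCardEq h6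
  refine ⟨(e.permCongrHom.trans γ6).trans e.permCongrHom.symm, ?_⟩
  intro x y hxy z h
  have h1 : e.symm (γ6 (e.permCongr (swap x y)) (e z)) = z := h
  have h2 : e.permCongr (swap x y) = swap (e x) (e y) := by
    rw [Equiv.permCongr_def, Equiv.symm_trans_swap_trans]
  rw [h2, Equiv.symm_apply_eq] at h1
  exact γ6_fpf (e x) (e y) (fun h' => hxy (e.injective h')) (e z) h1

end outer


end Cfsg.Agent.Lib.Helper21.S6Out
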