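import Mathlib

set_option autoImplicit false

namespace Cfsg.Agent.Lib.Helper21

open scoped Pointwise

variable {G : Type*} [Group G] [Finite G] {p : ℕ} [Fact p.Prime]

/-- The TI condition for one Sylow subgroup says that distinct Sylow subgroups meet trivially. -/
lemma sylow_ti_all (P : Sylow p G)
    (hTI : ∀ g : G, g ∉ Subgroup.normalizer ((P : Subgroup G) : Set G) →
      (P : Subgroup G) ⊓ (MulAut.conj g • (P : Subgroup G)) = ⊥)
    (P1 P2 : Sylow p G) (hne : P1 ≠ P2) : (P1 : Subgroup G) ⊓ (P2 : Subgroup G) = ⊥ := by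
  obtain ⟨a, rfl⟩ := MulAction.exists_smul_eq G P P1
  obtain ⟨b, rfl⟩ := MulAction.exists_smul_eq G P P2
  have hg : a⁻¹ * b ∉ Subgroup.normalizer ((P : Subgroup G) : Set G) := by
    intro hmem
    have h1 : (a⁻¹ * b) • P = P := Sylow.smul_eq_iff_mem_normalizer.2 hmem
    apply hne
    rw [mul_smul, inv_smul_eq_iff] at h1
    exact h1.symm
  have h2 := hTI _ hg
  have h3 : MulAut.conj a • ((P : Subgroup G) ⊓ (MulAut.conj (a⁻¹ * b) • (P : Subgroup G))) = ⊥ := by
    rw [h2, Subgroup.smul_bot]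
  rw [Subgroup.smul_inf, smul_smul, ← map_mul, mul_inv_cancel_left] at h3
  exact h3

lemma sylow_ti_of_all (P : Sylow p G)
    (h : ∀ P1 P2 : Sylow p G, P1 ≠ P2 → (P1 : Subgroup G) ⊓ (P2 : Subgroup G) = ⊥) :
    ∀ g : G, g ∉ Subgroup.normalizer ((P : Subgroup G) : Set G) →
      (P : Subgroup G) ⊓ (MulAut.conj g • (P : Subgroup G)) = ⊥ := by
  intro g hg
  have hne : P ≠ g • P := fun heq => hg (Sylow.smul_eq_iff_mem_normalizer.1 heq.symm)
  exact h P (g • P) hne

end Cfsg.Agent.Lib.Helper21
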