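import Mathlib

set_option autoImplicit false
set_option linter.unusedSimpArgs false

namespace Cfsg.Agent.Lib.Helper21.Tri235

variable {T : Type*} [Group T]

/-- coset representatives of `⟨y⟩` in the `(2,3,5)` group -/
def w (a y : T) : Fin 12 → T :=
  ![1, a, a * y, a * y ^ 2, a * y ^ 3, a * y ^ 4,
    a * y ^ 2 * a, a * y ^ 2 * a * y, a * y ^ 2 * a * y ^ 2, a * y ^ 2 * a * y ^ 3,
    a * y ^ 2 * a * y ^ 4, a * y ^ 2 * a * y ^ 3 * a]

section
variable (a y : T) (ha : a * a = 1) (hy : y ^ 5 = 1) (R1 : a * y⁻¹ * a = y * a * y)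
  (R2 : a * y * a = y⁻¹ * a * y⁻¹)

include hy in
lemma hy4 : y ^ 4 = y⁻¹ := by
  rw [eq_inv_iff_mul_eq_one, ← pow_succ, hy]

include hy in
lemma hy3 : y ^ 3 = y⁻¹ * y⁻¹ := by
  have h : y ^ 3 * (y * y) = 1 := by
    rw [← hy]; simp only [pow_succ, pow_zero, one_mul, mul_one, mul_assoc, inv_mul_cancel_left, mul_inv_cancel_left, inv_mul_cancel, mul_inv_cancel]
  have h2 := eq_inv_of_mul_eq_one_left h
  rw [h2, mul_inv_rev]

include ha hy R1 in
lemma id4 : a * y ^ 3 * a = y ^ 1 * (a * y ^ 2 * a * y) := by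
  calc a * y ^ 3 * a = a * y⁻¹ * (a * a) * y⁻¹ * a := by rw [ha, hy3 y hy]; simp only [pow_succ, pow_zero, one_mul, mul_one, mul_assoc, inv_mul_cancel_left, mul_inv_cancel_left, inv_mul_cancel, mul_inv_cancel]
    _ = (a * y⁻¹ * a) * (a * y⁻¹ * a) := by simp only [pow_succ, pow_zero, one_mul, mul_one, mul_assoc, inv_mul_cancel_left, mul_inv_cancel_left, inv_mul_cancel, mul_inv_cancel]
    _ = (y * a * y) * (y * a * y) := by rw [R1]
    _ = y ^ 1 * (a * y ^ 2 * a * y) := by simp only [pow_succ, pow_zero, one_mul, mul_one, mul_assoc, inv_mul_cancel_left, mul_inv_cancel_left, inv_mul_cancel, mul_inv_cancel]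

include hy R2 in
lemma id7 : a * y ^ 2 * a * y * a = y ^ 4 * (a * y ^ 3) := by
  calc a * y ^ 2 * a * y * a = a * y ^ 2 * (a * y * a) := by simp only [pow_succ, pow_zero, one_mul, mul_one, mul_assoc, inv_mul_cancel_left, mul_inv_cancel_left, inv_mul_cancel, mul_inv_cancel]
    _ = a * y ^ 2 * (y⁻¹ * a * y⁻¹) := by rw [R2]
    _ = (a * y * a) * y⁻¹ := by simp only [pow_succ, pow_zero, one_mul, mul_one, mul_assoc, inv_mul_cancel_left, mul_inv_cancel_left, inv_mul_cancel, mul_inv_cancel]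
    _ = (y⁻¹ * a * y⁻¹) * y⁻¹ := by rw [R2]
    _ = y⁻¹ * (a * (y⁻¹ * y⁻¹)) := by simp only [pow_succ, pow_zero, one_mul, mul_one, mul_assoc, inv_mul_cancel_left, mul_inv_cancel_left, inv_mul_cancel, mul_inv_cancel]
    _ = y ^ 4 * (a * y ^ 3) := by rw [hy4 y hy, hy3 y hy]

include ha hy R1 in
lemma id10 : a * y ^ 2 * a * y ^ 4 * a = y ^ 1 * (a * y ^ 2 * a * y ^ 2) := by
  calc a * y ^ 2 * a * y ^ 4 * a = a * y ^ 2 * (a * y⁻¹ * a) := by rw [hy4 y hy]; simp only [pow_succ, pow_zero, one_mul, mul_one, mul_assoc, inv_mul_cancel_left, mul_inv_cancel_left, inv_mul_cancel, mul_inv_cancel]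
    _ = a * y ^ 2 * (y * a * y) := by rw [R1]
    _ = (a * y ^ 3 * a) * y := by simp only [pow_succ, pow_zero, one_mul, mul_one, mul_assoc, inv_mul_cancel_left, mul_inv_cancel_left, inv_mul_cancel, mul_inv_cancel]
    _ = (y ^ 1 * (a * y ^ 2 * a * y)) * y := by rw [id4 a y ha hy R1]
    _ = y ^ 1 * (a * y ^ 2 * a * y ^ 2) := by simp only [pow_succ, pow_zero, one_mul, mul_one, mul_assoc, inv_mul_cancel_left, mul_inv_cancel_left, inv_mul_cancel, mul_inv_cancel]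

include ha hy R1 in
lemma id8 : a * y ^ 2 * a * y ^ 2 * a = y ^ 4 * (a * y ^ 2 * a * y ^ 4) := by
  calc a * y ^ 2 * a * y ^ 2 * a = y⁻¹ * (y ^ 1 * (a * y ^ 2 * a * y ^ 2)) * a := by simp only [pow_succ, pow_zero, one_mul, mul_one, mul_assoc, inv_mul_cancel_left, mul_inv_cancel_left, inv_mul_cancel, mul_inv_cancel]
    _ = y⁻¹ * (a * y ^ 2 * a * y ^ 4 * a) * a := by rw [id10 a y ha hy R1]
    _ = y⁻¹ * (a * y ^ 2 * a * y ^ 4) * (a * a) := by simp only [pow_succ, pow_zero, one_mul, mul_one, mul_assoc, inv_mul_cancel_left, mul_inv_cancel_left, inv_mul_cancel, mul_inv_cancel]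
    _ = y ^ 4 * (a * y ^ 2 * a * y ^ 4) := by rw [ha, hy4 y hy, mul_one]

include ha hy R1 R2 in
lemma id11 : a * y ^ 2 * a * y ^ 3 * a * y = y ^ 4 * (a * y ^ 2 * a * y ^ 3 * a) := by
  calc a * y ^ 2 * a * y ^ 3 * a * y
      = y⁻¹ * (y ^ 1 * (a * y ^ 2 * a * y ^ 2)) * (y * a * y) := by simp only [pow_succ, pow_zero, one_mul, mul_one, mul_assoc, inv_mul_cancel_left, mul_inv_cancel_left, inv_mul_cancel, mul_inv_cancel]
    _ = y⁻¹ * (a * y ^ 2 * a * y ^ 4 * a) * (y * a * y) := by rw [id10 a y ha hy R1]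
    _ = y⁻¹ * (a * y ^ 2 * a * y ^ 4) * (a * y * a) * y := by simp only [pow_succ, pow_zero, one_mul, mul_one, mul_assoc, inv_mul_cancel_left, mul_inv_cancel_left, inv_mul_cancel, mul_inv_cancel]
    _ = y⁻¹ * (a * y ^ 2 * a * y ^ 4) * (y⁻¹ * a * y⁻¹) * y := by rw [R2]
    _ = y⁻¹ * (a * y ^ 2 * a * y ^ 3 * a) := by simp only [pow_succ, pow_zero, one_mul, mul_one, mul_assoc, inv_mul_cancel_left, mul_inv_cancel_left, inv_mul_cancel, mul_inv_cancel]
    _ = y ^ 4 * (a * y ^ 2 * a * y ^ 3 * a) := by rw [hy4 y hy]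

include ha hy R1 R2 in
lemma step_a (j : Fin 12) : ∃ (i : ℕ) (j' : Fin 12), w a y j * a = y ^ i * w a y j' := by
  fin_cases j
  · exact ⟨0, 1, by show 1 * a = y ^ 0 * a; simp⟩
  · exact ⟨0, 0, by show a * a = y ^ 0 * 1; simp [ha]⟩
  · exact ⟨4, 5, by
      show a * y * a = y ^ 4 * (a * y ^ 4)
      rw [hy4 y hy, R2, mul_assoc]⟩
  · exact ⟨0, 6, by show a * y ^ 2 * a = y ^ 0 * (a * y ^ 2 * a); simp⟩
  · exact ⟨1, 7, id4 a y ha hy R1⟩
  · exact ⟨1, 2, by
      show a * y ^ 4 * a = y ^ 1 * (a * y)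
      rw [hy4 y hy, R1]; simp only [pow_succ, pow_zero, one_mul, mul_one, mul_assoc, inv_mul_cancel_left, mul_inv_cancel_left, inv_mul_cancel, mul_inv_cancel]⟩
  · exact ⟨0, 3, by
      show a * y ^ 2 * a * a = y ^ 0 * (a * y ^ 2)
      rw [mul_assoc _ a a, ha]; simp⟩
  · exact ⟨4, 4, id7 a y hy R2⟩
  · exact ⟨4, 10, id8 a y ha hy R1⟩
  · exact ⟨0, 11, by
      show a * y ^ 2 * a * y ^ 3 * a = y ^ 0 * (a * y ^ 2 * a * y ^ 3 * a)
      simp⟩
  · exact ⟨1, 8, id10 a y ha hy R1⟩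
  · exact ⟨0, 9, by
      show a * y ^ 2 * a * y ^ 3 * a * a = y ^ 0 * (a * y ^ 2 * a * y ^ 3)
      rw [mul_assoc _ a a, ha]; simp⟩

include ha hy R1 R2 in
lemma step_y (j : Fin 12) : ∃ (i : ℕ) (j' : Fin 12), w a y j * y = y ^ i * w a y j' := by
  fin_cases j
  · exact ⟨1, 0, by show 1 * y = y ^ 1 * 1; simp⟩
  · exact ⟨0, 2, by show a * y = y ^ 0 * (a * y); simp⟩
  · exact ⟨0, 3, by show a * y * y = y ^ 0 * (a * y ^ 2); simp only [pow_succ, pow_zero, one_mul, mul_one, mul_assoc, inv_mul_cancel_left, mul_inv_cancel_left, inv_mul_cancel, mul_inv_cancel]⟩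
  · exact ⟨0, 4, by show a * y ^ 2 * y = y ^ 0 * (a * y ^ 3); simp only [pow_succ, pow_zero, one_mul, mul_one, mul_assoc, inv_mul_cancel_left, mul_inv_cancel_left, inv_mul_cancel, mul_inv_cancel]⟩
  · exact ⟨0, 5, by show a * y ^ 3 * y = y ^ 0 * (a * y ^ 4); simp only [pow_succ, pow_zero, one_mul, mul_one, mul_assoc, inv_mul_cancel_left, mul_inv_cancel_left, inv_mul_cancel, mul_inv_cancel]⟩
  · exact ⟨0, 1, by
      show a * y ^ 4 * y = y ^ 0 * a
      rw [mul_assoc, ← pow_succ, hy]; simp⟩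
  · exact ⟨0, 7, by show a * y ^ 2 * a * y = y ^ 0 * (a * y ^ 2 * a * y); simp⟩
  · exact ⟨0, 8, by show a * y ^ 2 * a * y * y = y ^ 0 * (a * y ^ 2 * a * y ^ 2); simp only [pow_succ, pow_zero, one_mul, mul_one, mul_assoc, inv_mul_cancel_left, mul_inv_cancel_left, inv_mul_cancel, mul_inv_cancel]⟩
  · exact ⟨0, 9, by show a * y ^ 2 * a * y ^ 2 * y = y ^ 0 * (a * y ^ 2 * a * y ^ 3); simp only [pow_succ, pow_zero, one_mul, mul_one, mul_assoc, inv_mul_cancel_left, mul_inv_cancel_left, inv_mul_cancel, mul_inv_cancel]⟩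
  · exact ⟨0, 10, by show a * y ^ 2 * a * y ^ 3 * y = y ^ 0 * (a * y ^ 2 * a * y ^ 4); simp only [pow_succ, pow_zero, one_mul, mul_one, mul_assoc, inv_mul_cancel_left, mul_inv_cancel_left, inv_mul_cancel, mul_inv_cancel]⟩
  · exact ⟨0, 6, by
      show a * y ^ 2 * a * y ^ 4 * y = y ^ 0 * (a * y ^ 2 * a)
      rw [mul_assoc _ (y ^ 4) y, ← pow_succ, hy]; simp⟩
  · exact ⟨4, 11, id11 a y ha hy R1 R2⟩

end

/-- The `(2,3,5)` triangle group has order at most `60`. -/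
theorem tri_card (x y : T) (hx : x ^ 3 = 1) (hy : y ^ 5 = 1) (hxy : (x * y) ^ 2 = 1)
    (hgen : Subgroup.closure {x, y} = ⊤) : Finite T ∧ Nat.card T ≤ 60 := by
  obtain ⟨a, haxy⟩ : ∃ a, a = x * y := ⟨_, rfl⟩
  have ha : a * a = 1 := by rw [haxy, ← pow_two, hxy]
  have hai : a⁻¹ = a := (eq_inv_of_mul_eq_one_right ha).symm
  have hxa : x = a * y⁻¹ := by rw [haxy]; simp only [pow_succ, pow_zero, one_mul, mul_one, mul_assoc, inv_mul_cancel_left, mul_inv_cancel_left, inv_mul_cancel, mul_inv_cancel]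
  have R1 : a * y⁻¹ * a = y * a * y := by
    have h3 : a * y⁻¹ * a * (y⁻¹ * a * y⁻¹) = 1 := by
      rw [← hx, hxa]; simp only [pow_succ, pow_zero, one_mul, mul_one, mul_assoc, inv_mul_cancel_left, mul_inv_cancel_left, inv_mul_cancel, mul_inv_cancel]
    have h4 := eq_inv_of_mul_eq_one_left h3
    rw [h4, mul_inv_rev, mul_inv_rev, inv_inv, hai, mul_assoc]
  have R2 : a * y * a = y⁻¹ * a * y⁻¹ := by
    have h := congrArg (fun t => t⁻¹) R1
    simp only [mul_inv_rev, inv_inv, hai] at h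
    rw [mul_assoc, h, mul_assoc]
  have hA : ∀ g : T, (∃ (i : ℕ) (j : Fin 12), g = y ^ i * w a y j) →
      ∃ (i : ℕ) (j : Fin 12), g * a = y ^ i * w a y j := by
    rintro g ⟨i, j, rfl⟩
    obtain ⟨i', j', h⟩ := step_a a y ha hy R1 R2 j
    exact ⟨i + i', j', by rw [mul_assoc, h, ← mul_assoc, pow_add]⟩
  have hY : ∀ g : T, (∃ (i : ℕ) (j : Fin 12), g = y ^ i * w a y j) →
      ∃ (i : ℕ) (j : Fin 12), g * y = y ^ i * w a y j := by
    rintro g ⟨i, j, rfl⟩
    obtain ⟨i', j', h⟩ := step_y a y ha hy R1 R2 j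
    exact ⟨i + i', j', by rw [mul_assoc, h, ← mul_assoc, pow_add]⟩
  have hYi : ∀ g : T, (∃ (i : ℕ) (j : Fin 12), g = y ^ i * w a y j) →
      ∃ (i : ℕ) (j : Fin 12), g * y⁻¹ = y ^ i * w a y j := by
    intro g hg
    have h := hY _ (hY _ (hY _ (hY _ hg)))
    have e : g * y * y * y * y = g * y⁻¹ := by
      rw [← hy4 y hy]; simp only [pow_succ, pow_zero, one_mul, mul_one, mul_assoc, inv_mul_cancel_left, mul_inv_cancel_left, inv_mul_cancel, mul_inv_cancel]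
    rwa [e] at h
  have hall : ∀ g : T, ∃ (i : ℕ) (j : Fin 12), g = y ^ i * w a y j := by
    intro g
    have hg : g ∈ Subgroup.closure {x, y} := by rw [hgen]; trivial
    induction hg using Subgroup.closure_induction_right with
    | one => exact ⟨0, 0, by show (1 : T) = y ^ 0 * 1; simp⟩
    | mul_right g _ z hz ih =>
      rcases hz with rfl | rfl
      · have h := hYi _ (hA _ ih)
        rwa [mul_assoc, ← hxa] at h
      · exact hY _ ih
    | mul_inv_cancel g _ z hz ih =>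
      rcases hz with rfl | rfl
      · have h := hA _ (hY _ ih)
        have e : g * y * a = g * z⁻¹ := by
          rw [hxa, mul_inv_rev, inv_inv, hai, mul_assoc]
        rwa [e] at h
      · exact hYi _ ih
  have hsurj : Function.Surjective (fun p : Fin 5 × Fin 12 => y ^ (p.1 : ℕ) * w a y p.2) := by
    intro g
    obtain ⟨i, j, rfl⟩ := hall g
    refine ⟨(⟨i % 5, Nat.mod_lt _ (by norm_num)⟩, j), ?_⟩
    show y ^ (i % 5) * w a y j = y ^ i * w a y j
    rw [← pow_eq_pow_mod i hy]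
  refine ⟨Finite.of_surjective _ hsurj, ?_⟩
  have h := Nat.card_le_card_of_surjective _ hsurj
  simpa using h

end Cfsg.Agent.Lib.Helper21.Tri235
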