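import Mathlib
import Cfsg.Prelude.Def_Solvable
import Cfsg.Agent.Lib.Helper15.Frob4
import Cfsg.Agent.Lib.Helper15.FpfSylow
import Cfsg.Agent.Lib.Helper15.FrobAct

set_option autoImplicit false

namespace Cfsg.Agent.Lib.Helper21

open Subgroup

/-- An element order of a quotient (homomorphic image) is an element order of the group. -/
lemma tf_exists_orderOf {G Q : Type*} [Group G] [Group Q] [Finite G] (f : G →* Q)
    (hf : Function.Surjective f) (y : Q) : ∃ g : G, orderOf g = orderOf y := by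
  obtain ⟨x, rfl⟩ := hf y
  exact ⟨x ^ (orderOf x / orderOf (f x)),
    orderOf_pow_orderOf_div (orderOf_pos x).ne' (orderOf_map_dvd f x)⟩

lemma tf_exists_prime_of_pgroup {X : Type*} [Group X] [Finite X] (p : ℕ) [hp : Fact p.Prime]
    (V : Subgroup X) (hV : IsPGroup p V) (hne : V ≠ ⊥) : ∃ x ∈ V, orderOf x = p := by
  obtain ⟨v, hv, hv1⟩ : ∃ v ∈ V, v ≠ 1 := by
    by_contra hcon
    push Not at hcon
    exact hne ((Subgroup.eq_bot_iff_forall V).2 hcon)
  obtain ⟨k, hk⟩ := (IsPGroup.iff_orderOf.1 hV) ⟨v, hv⟩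
  rw [Subgroup.orderOf_mk] at hk
  have hk0 : k ≠ 0 := by
    rintro rfl
    rw [pow_zero] at hk
    exact hv1 (orderOf_eq_one_iff.1 hk)
  have hdvd : p ∣ orderOf v := by rw [hk]; exact dvd_pow_self p hk0
  exact ⟨v ^ (orderOf v / p), V.pow_mem hv _,
    orderOf_pow_orderOf_div (orderOf_pos v).ne' hdvd⟩

lemma tf_orderOf_mul {X : Type*} [Group X] {p q : ℕ} (hp : p.Prime) (hq : q.Prime) (hpq : p ≠ q)
    {x y : X} (hxy : x * y = y * x) (hx : orderOf x = p) (hy : orderOf y = q) :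
    orderOf (x * y) = p * q := by
  have hc : Commute x y := hxy
  rw [hc.orderOf_mul_eq_mul_orderOf_of_coprime (by
    rw [hx, hy]; exact (Nat.coprime_primes hp hq).2 hpq), hx, hy]

/-- In a nilpotent normal subgroup, two distinct prime divisors give an element of order `pq`. -/
lemma tf_exists_pq_nilpotent {X : Type*} [Group X] [Finite X] (N : Subgroup X) [N.Normal]
    (hnil : Group.IsNilpotent N) {p q : ℕ} (hp : p.Prime) (hq : q.Prime) (hpq : p ≠ q)
    (hpN : p ∣ Nat.card N) (hqN : q ∣ Nat.card N) : ∃ g : X, orderOf g = p * q := by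
  haveI : Fact p.Prime := ⟨hp⟩
  haveI : Fact q.Prime := ⟨hq⟩
  obtain ⟨V, _, hVN, hVne, hVc, hVp⟩ :=
    Cfsg.Agent.Lib.Helper15.exists_normal_central_pSubgroup N hnil p hpN
  obtain ⟨x, hxV, hx⟩ := tf_exists_prime_of_pgroup p V hVp hVne
  obtain ⟨y, hy⟩ := exists_prime_orderOf_dvd_card' (G := ↥N) q hqN
  rw [← Subgroup.orderOf_coe] at hy
  exact ⟨x * y, tf_orderOf_mul hp hq hpq (hVc x hxV y y.2).symm hx hy⟩

/-- In a Frobenius group, centralizers of non-identity kernel elements lie in the kernel. -/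
lemma tf_centralizer_le_kernel {X : Type*} [Group X] [Finite X] (K C : Subgroup X) [hKn : K.Normal]
    (hc : Subgroup.IsComplement' K C)
    (hf : ∀ c ∈ C, c ≠ 1 → K ⊓ Subgroup.centralizer {c} = ⊥) :
    ∀ x ∈ K, x ≠ 1 → ∀ g : X, g * x = x * g → g ∈ K := by
  intro x hx x1 g hg
  obtain ⟨⟨k0, c⟩, hkc⟩ := hc.2 g
  have hkc' : (k0 : X) * c = g := hkc
  by_cases hc1 : (c : X) = 1
  · rw [← hkc', hc1, mul_one]; exact k0.2
  · exfalso
    obtain ⟨k, hk, e⟩ := Cfsg.Agent.Lib.Helper15.fpf_comm_surjective K (c : X)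
      (fun k hk => hKn.conj_mem k hk c) (hf c c.2 hc1) k0.2
    have e1 : k⁻¹ * c * k = g := by
      rw [← hkc', ← e]; group
    rw [← e1] at hg
    have e2 : (k * x * k⁻¹) * c = c * (k * x * k⁻¹) := by
      calc (k * x * k⁻¹) * c = k * (x * (k⁻¹ * c * k)) * k⁻¹ := by group
        _ = k * ((k⁻¹ * c * k) * x) * k⁻¹ := by rw [hg]
        _ = c * (k * x * k⁻¹) := by group
    have e3 : k * x * k⁻¹ ∈ K ⊓ Subgroup.centralizer {(c : X)} :=
      Subgroup.mem_inf.2 ⟨hKn.conj_mem x hx k, Subgroup.mem_centralizer_singleton_iff.2 e2⟩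
    rw [hf c c.2 hc1, Subgroup.mem_bot] at e3
    apply x1
    calc x = k⁻¹ * (k * x * k⁻¹) * k := by group
      _ = 1 := by rw [e3]; group

/-- The conjugation action of `G ⧸ H` on a normal subgroup `V` centralized by `H`. -/
noncomputable def tfQuotConj {G : Type*} [Group G] (H V : Subgroup G) [H.Normal] [V.Normal]
    (hc : ∀ v ∈ V, ∀ h ∈ H, h * v = v * h) : G ⧸ H →* MulAut ↥V :=
  QuotientGroup.lift H (MulAut.conjNormal : G →* MulAut ↥V) (by
    intro x hx
    ext v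
    rw [MulAut.conjNormal_apply, MulAut.one_apply, hc v v.2 x hx, mul_assoc, mul_inv_cancel,
      mul_one])

lemma tfQuotConj_mk {G : Type*} [Group G] (H V : Subgroup G) [H.Normal] [V.Normal]
    (hc : ∀ v ∈ V, ∀ h ∈ H, h * v = v * h) (g : G) (v : ↥V) :
    ((tfQuotConj H V hc (QuotientGroup.mk g) v : ↥V) : G) = g * v * g⁻¹ := by
  show ((MulAut.conjNormal g v : ↥V) : G) = _
  rw [MulAut.conjNormal_apply]

lemma tf_orderOf_pow_div {X : Type*} [Group X] [Finite X] (p : ℕ) [hp : Fact p.Prime]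
    (V : Subgroup X) (hV : IsPGroup p V) {v : X} (hv : v ∈ V) (hv1 : v ≠ 1) :
    orderOf (v ^ (orderOf v / p)) = p := by
  obtain ⟨k, hk⟩ := (IsPGroup.iff_orderOf.1 hV) ⟨v, hv⟩
  rw [Subgroup.orderOf_mk] at hk
  have hk0 : k ≠ 0 := by
    rintro rfl
    rw [pow_zero] at hk
    exact hv1 (orderOf_eq_one_iff.1 hk)
  have hdvd : p ∣ orderOf v := by rw [hk]; exact dvd_pow_self p hk0
  exact orderOf_pow_orderOf_div (orderOf_pos v).ne' hdvd

open scoped IsMulCommutative in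
lemma tf_unique {G : Type*} [Group G] [Finite G] (H K : Subgroup G) [H.Normal] [K.Normal]
    (hHnil : Group.IsNilpotent H) (hH : H ≠ ⊥)
    (hF1 : ∀ v ∈ H, v ≠ 1 → ∀ k ∈ K, k * v = v * k → k ∈ H)
    {r : ℕ} (hr : r.Prime) {a b : G ⧸ H} (ha : a ∈ K.map (QuotientGroup.mk' H))
    (hb : b ∈ K.map (QuotientGroup.mk' H))
    (hab : a * b = b * a) (hoa : orderOf a = r) (hob : orderOf b = r) : b ∈ zpowers a := by
  classical
  have hcard : Nat.card H ≠ 1 := fun h => hH (Subgroup.card_eq_one.1 h)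
  obtain ⟨s, hs, hsH⟩ := Nat.exists_prime_and_dvd hcard
  haveI : Fact s.Prime := ⟨hs⟩
  obtain ⟨V, hVn, hVH, hVne, hVc, hVp⟩ :=
    Cfsg.Agent.Lib.Helper15.exists_normal_central_pSubgroup H hHnil s hsH
  haveI := hVn
  haveI : IsMulCommutative ↥V := ⟨⟨fun x y => Subtype.ext (hVc y y.2 x (hVH x.2))⟩⟩
  haveI : Nontrivial ↥V := (Subgroup.nontrivial_iff_ne_bot V).2 hVne
  let ψ : ↥(K.map (QuotientGroup.mk' H)) →* MulAut ↥V :=
    (tfQuotConj H V hVc).comp (Subgroup.subtype _)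
  have hψ : Cfsg.Agent.Lib.Helper15.IsFpf ψ := by
    intro x hx1 v hv
    obtain ⟨k, hk, hkx⟩ := Subgroup.mem_map.1 x.2
    by_contra hv1
    have hv1' : (v : G) ≠ 1 := fun e => hv1 (Subtype.ext e)
    have e0 : ((ψ x v : ↥V) : G) = k * v * k⁻¹ := by
      show ((tfQuotConj H V hVc (x : G ⧸ H) v : ↥V) : G) = _
      rw [← hkx]
      exact tfQuotConj_mk H V hVc k v
    have e1 : k * v * k⁻¹ = (v : G) := e0.symm.trans (congrArg Subtype.val hv)
    have e2 : k * v = v * k := mul_inv_eq_iff_eq_mul.1 e1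
    have e3 : k ∈ H := hF1 v (hVH v.2) hv1' k hk e2
    apply hx1
    apply Subtype.ext
    rw [← hkx]
    exact (QuotientGroup.eq_one_iff k).2 e3
  have h := hψ.mem_zpowers_of_commute hr (a := ⟨a, ha⟩) (b := ⟨b, hb⟩) (Subtype.ext hab)
    (by rw [Subgroup.orderOf_mk]; exact hoa) (by rw [Subgroup.orderOf_mk]; exact hob)
  obtain ⟨k, hk⟩ := Subgroup.mem_zpowers_iff.1 h
  exact Subgroup.mem_zpowers_iff.2 ⟨k, by
    have := congrArg Subtype.val hk
    simpa using this⟩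

open scoped IsMulCommutative in
lemma tf_fix {G : Type*} [Group G] [Finite G] (H K : Subgroup G) [H.Normal] [K.Normal]
    (hHnil : Group.IsNilpotent H)
    (hF1 : ∀ v ∈ H, v ≠ 1 → ∀ k ∈ K, k * v = v * k → k ∈ H) (hKH : ∃ k ∈ K, k ∉ H)
    (C0 : Subgroup (G ⧸ H)) (hC0 : Cfsg.IsFrobeniusComplement C0)
    (hC0k : Cfsg.frobeniusKernel C0 = (K.map (QuotientGroup.mk' H) : Set (G ⧸ H)))
    (hcop : (Nat.card H).Coprime (Nat.card (K.map (QuotientGroup.mk' H))))
    {s : ℕ} (hs : s.Prime) (hsH : s ∣ Nat.card H) :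
    ∃ v : G, orderOf v = s ∧ ∀ g : G, (QuotientGroup.mk g : G ⧸ H) ∈ C0 → g * v = v * g := by
  classical
  haveI : Fact s.Prime := ⟨hs⟩
  obtain ⟨V, hVn, hVH, hVne, hVc, hVp⟩ :=
    Cfsg.Agent.Lib.Helper15.exists_normal_central_pSubgroup H hHnil s hsH
  haveI := hVn
  haveI : IsMulCommutative ↥V := ⟨⟨fun x y => Subtype.ext (hVc y y.2 x (hVH x.2))⟩⟩
  by_contra hcon
  push Not at hcon
  have hcomm : ∀ (g : G) (v : ↥V), tfQuotConj H V hVc (QuotientGroup.mk g) v = v →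
      g * (v : G) = v * g := by
    intro g v h
    have e0 := tfQuotConj_mk H V hVc g v
    rw [h] at e0
    exact mul_inv_eq_iff_eq_mul.1 e0.symm
  have hall := Cfsg.Agent.Lib.Helper15.frob_fixed_point (tfQuotConj H V hVc) C0 hC0
    (by
      rw [hC0k]
      exact Nat.Coprime.coprime_dvd_left (Subgroup.card_dvd_of_le hVH) hcop)
    (by
      intro v hv
      obtain ⟨k0, hk0, hk0H⟩ := hKH
      have h1 : (QuotientGroup.mk k0 : G ⧸ H) ∈ Cfsg.frobeniusKernel C0 := by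
        rw [hC0k]
        exact Subgroup.mem_map.2 ⟨k0, hk0, rfl⟩
      have h2 := hcomm k0 v (hv _ h1)
      by_contra hv1
      exact hk0H (hF1 v (hVH v.2) (fun e => hv1 (Subtype.ext e)) k0 hk0 h2))
    (by
      intro v hv
      by_contra hv1
      have hv1' : (v : G) ≠ 1 := fun e => hv1 (Subtype.ext e)
      obtain ⟨g, hg, hne⟩ := hcon _ (tf_orderOf_pow_div s V hVp v.2 hv1')
      apply hne
      have h2 : Commute g (v : G) := hcomm g v (hv _ hg)
      exact (h2.pow_right _).eq)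
  apply hVne
  rw [Subgroup.eq_bot_iff_forall]
  intro x hx
  exact congrArg Subtype.val (hall ⟨x, hx⟩)

end Cfsg.Agent.Lib.Helper21
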